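import Mathlib
import Cfsg.Agent.Lib.Helper82.Rud.Defs

set_option autoImplicit false

namespace Cfsg.Agent.Lib.Helper82.Rud

open scoped commutatorElement

/-- Coprime action step. -/
theorem cop {T : Type*} [Group T] [Finite T] (hT : IsPGroup 2 T) (α : MulAut T) (k : ℕ) (hk : Odd k) (hα : α ^ k = 1)
    (x n : T) (hx : α x = n * x) (hn : α n = n) : α x = x := by
  have h1 : ∀ j : ℕ, (α ^ j) x = n ^ j * x := by
    intro j
    induction j with
    | zero => simp
    | succ j ih =>
      rw [pow_succ', MulAut.mul_apply, ih, map_mul, map_pow, hn, hx, pow_succ, mul_assoc]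
  have h2 : n ^ k = 1 := by
    have := h1 k
    rw [hα, MulAut.one_apply] at this
    exact mul_eq_right.1 this.symm
  obtain ⟨m, hm⟩ := hT n
  have h3 : orderOf n ∣ k := orderOf_dvd_of_pow_eq_one h2
  have h4 : orderOf n ∣ 2 ^ m := orderOf_dvd_of_pow_eq_one hm
  have hcop : Nat.Coprime (2 ^ m) k := Nat.Coprime.pow_left m (Nat.coprime_two_left.2 hk)
  have h5 : orderOf n = 1 := Nat.eq_one_of_dvd_coprimes hcop h4 h3
  rw [orderOf_eq_one_iff] at h5
  rw [hx, h5, one_mul]

end Cfsg.Agent.Lib.Helper82.Rud
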