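import Mathlib
import Cfsg.Agent.Lib.Helper82.Rud.Defs

set_option autoImplicit false

namespace Cfsg.Agent.Lib.Helper82.Rud

open scoped commutatorElement

/-- A normal subgroup not contained in `Z_i` meets `Z_(i+1) \ Z_i`. -/
theorem nc {T : Type*} [Group T] [Group.IsNilpotent T] (L : Subgroup T) [L.Normal] (i : ℕ)
    (hL : ¬ L ≤ Subgroup.upperCentralSeries T i) :
    ∃ x ∈ L, x ∈ Subgroup.upperCentralSeries T (i + 1) ∧ x ∉ Subgroup.upperCentralSeries T i := by
  classical
  obtain ⟨c, hc⟩ := Group.IsNilpotent.nilpotent' (G := T)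
  have hex : ∃ j, ¬ (L ⊓ Subgroup.upperCentralSeries T j ≤ Subgroup.upperCentralSeries T i) :=
    ⟨c, by rw [hc, inf_top_eq]; exact hL⟩
  have hj := Nat.find_spec hex
  cases hjj : Nat.find hex with
  | zero =>
    rw [hjj] at hj
    exfalso
    apply hj
    rw [Subgroup.upperCentralSeries_zero, inf_bot_eq]
    exact bot_le
  | succ j' =>
    have h1 : L ⊓ Subgroup.upperCentralSeries T j' ≤ Subgroup.upperCentralSeries T i :=
      not_not.mp (Nat.find_min hex (by omega))
    rw [hjj] at hj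
    obtain ⟨x, hx, hxi⟩ := SetLike.not_le_iff_exists.mp hj
    refine ⟨x, hx.1, ?_, hxi⟩
    rw [Subgroup.mem_upperCentralSeries_succ_iff]
    intro y
    apply h1
    refine ⟨?_, (Subgroup.mem_upperCentralSeries_succ_iff.mp hx.2) y⟩
    have e : ⁅x, y⁆ = x * (y * x⁻¹ * y⁻¹) := by
      rw [commutatorElement_def]
      group
    show ⁅x, y⁆ ∈ L
    rw [e]
    exact L.mul_mem hx.1 (Subgroup.Normal.conj_mem inferInstance _ (L.inv_mem hx.1) y)

/-- The orders of the intersections with the upper central series at least double. -/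
theorem nc_card {T : Type*} [Group T] [Finite T] [Group.IsNilpotent T] (L : Subgroup T) [L.Normal]
    (i : ℕ) (hL : ¬ L ≤ Subgroup.upperCentralSeries T i) :
    2 * Nat.card ↥(L ⊓ Subgroup.upperCentralSeries T i) ≤
      Nat.card ↥(L ⊓ Subgroup.upperCentralSeries T (i + 1)) := by
  obtain ⟨x, hxL, hx1, hx0⟩ := nc L i hL
  have hle : L ⊓ Subgroup.upperCentralSeries T i ≤ L ⊓ Subgroup.upperCentralSeries T (i + 1) :=
    inf_le_inf_left L (Subgroup.upperCentralSeries_mono T (Nat.le_succ i))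
  obtain ⟨k, hk⟩ := Subgroup.card_dvd_of_le hle
  have hpos : 0 < Nat.card ↥(L ⊓ Subgroup.upperCentralSeries T (i + 1)) := Nat.card_pos
  have hk1 : k ≠ 1 := by
    rintro rfl
    have := Subgroup.eq_of_le_of_card_ge hle (by rw [hk, mul_one])
    apply hx0
    have hx : x ∈ L ⊓ Subgroup.upperCentralSeries T i := by rw [this]; exact ⟨hxL, hx1⟩
    exact hx.2
  have hk0 : k ≠ 0 := by
    rintro rfl
    rw [mul_zero] at hk
    omega
  have hk2 : 2 ≤ k := by omega
  rw [hk, mul_comm]
  exact Nat.mul_le_mul_left _ hk2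

end Cfsg.Agent.Lib.Helper82.Rud
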