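import Mathlib
import Cfsg.Agent.Lib.Helper82.Rud.Defs
import Cfsg.Agent.Lib.Helper82.Rud.NC

set_option autoImplicit false

namespace Cfsg.Agent.Lib.Helper82.Rud

open scoped commutatorElement

/-- The first four terms of the upper central series have orders 1,2,4,8,16. -/
theorem ucs_card {T : Type*} [Group T] [Finite T] (hT : IsPGroup 2 T)
    (h4 : Nat.card ↥(Subgroup.upperCentralSeries T 4) = 16) (hlt : 16 < Nat.card T) :
    ∀ i ≤ 4, Nat.card ↥(Subgroup.upperCentralSeries T i) = 2 ^ i := by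
  haveI : Fact (Nat.Prime 2) := ⟨Nat.prime_two⟩
  haveI : Group.IsNilpotent T := hT.isNilpotent
  have hne : ∀ i ≤ 4, ¬ (⊤ : Subgroup T) ≤ Subgroup.upperCentralSeries T i := by
    intro i hi h
    have h1 : (⊤ : Subgroup T) ≤ Subgroup.upperCentralSeries T 4 :=
      h.trans (Subgroup.upperCentralSeries_mono T hi)
    have h2 := Subgroup.card_le_of_le h1
    rw [Subgroup.card_top] at h2
    omega
  have step : ∀ i ≤ 4, 2 * Nat.card ↥(Subgroup.upperCentralSeries T i) ≤
      Nat.card ↥(Subgroup.upperCentralSeries T (i + 1)) := by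
    intro i hi
    have := nc_card (⊤ : Subgroup T) i (hne i hi)
    rwa [top_inf_eq, top_inf_eq] at this
  have h0 : Nat.card ↥(Subgroup.upperCentralSeries T 0) = 1 := by
    rw [Subgroup.upperCentralSeries_zero]
    exact Subgroup.card_bot
  have s0 := step 0 (by norm_num)
  have s1 := step 1 (by norm_num)
  have s2 := step 2 (by norm_num)
  have s3 := step 3 (by norm_num)
  simp only [zero_add, Nat.reduceAdd] at s0 s1 s2 s3
  intro i hi
  interval_cases i
  · rw [h0]; rfl
  · rw [show (2 : ℕ) ^ 1 = 2 from rfl]; omega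
  · rw [show (2 : ℕ) ^ 2 = 4 from rfl]; omega
  · rw [show (2 : ℕ) ^ 3 = 8 from rfl]; omega
  · rw [show (2 : ℕ) ^ 4 = 16 from rfl]; omega

end Cfsg.Agent.Lib.Helper82.Rud
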