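import Mathlib
import Cfsg.Agent.Lib.Helper82.Rud.Defs
import Cfsg.Agent.Lib.Helper82.Rud.UC
import Cfsg.Agent.Lib.Helper82.Rud.CP

set_option autoImplicit false

namespace Cfsg.Agent.Lib.Helper82.Rud

open scoped commutatorElement

/-- in a subgroup `K` with a subgroup `H` of half the order, the product of two elements of
`K \ H` lies in `H` -/
theorem mul_mem_of_card_two_mul {T : Type*} [Group T] [Finite T] {H K : Subgroup T} (hHK : H ≤ K)
    (hc : Nat.card ↥K = 2 * Nat.card ↥H) {a b : T} (ha : a ∈ K) (hb : b ∈ K) (ha' : a ∉ H)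
    (hb' : b ∉ H) : a * b ∈ H := by
  have h1 := Subgroup.card_mul_index (H.subgroupOf K)
  rw [Nat.card_congr (Subgroup.subgroupOfEquivOfLe hHK).toEquiv, hc, mul_comm] at h1
  have h2 : (H.subgroupOf K).index = 2 :=
    Nat.eq_of_mul_eq_mul_right Nat.card_pos h1
  have h3 := Subgroup.mul_mem_iff_of_index_two h2 (a := ⟨a, ha⟩) (b := ⟨b, hb⟩)
  simp only [Subgroup.mem_subgroupOf] at h3
  exact h3.2 ⟨fun h => absurd h ha', fun h => absurd h hb'⟩

theorem aut_mem_ucs_iff {T : Type*} [Group T] (α : MulAut T) (j : ℕ) (x : T) :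
    α x ∈ Subgroup.upperCentralSeries T j ↔ x ∈ Subgroup.upperCentralSeries T j := by
  have h := Subgroup.characteristic_iff_comap_eq.1
    (inferInstance : (Subgroup.upperCentralSeries T j).Characteristic) α
  constructor
  · intro hx
    rw [← h]
    exact hx
  · intro hx
    rw [← h] at hx
    exact hx

theorem aut_fix_Z4 {T : Type*} [Group T] [Finite T] {W : Subgroup T} (h : Hyp T W) (α : MulAut T) (k : ℕ) (hk : Odd k) (hα : α ^ k = 1) :
    ∀ x ∈ Subgroup.upperCentralSeries T 4, α x = x := by
  have hcard := ucs_card h.hT h.hb (lt_of_lt_of_le (by norm_num) h.ha)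
  have key : ∀ i ≤ 4, ∀ x ∈ Subgroup.upperCentralSeries T i, α x = x := by
    intro i
    induction i with
    | zero =>
      intro _ x hx
      rw [Subgroup.upperCentralSeries_zero, Subgroup.mem_bot] at hx
      rw [hx, map_one]
    | succ i ih =>
      intro hi x hx
      have ih' := ih (by omega)
      by_cases hxi : x ∈ Subgroup.upperCentralSeries T i
      · exact ih' x hxi
      have hle : Subgroup.upperCentralSeries T i ≤ Subgroup.upperCentralSeries T (i + 1) :=
        Subgroup.upperCentralSeries_mono T (Nat.le_succ i)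
      have hc : Nat.card ↥(Subgroup.upperCentralSeries T (i + 1))
          = 2 * Nat.card ↥(Subgroup.upperCentralSeries T i) := by
        rw [hcard (i + 1) hi, hcard i (by omega), pow_succ, mul_comm]
      have hn : α x * x⁻¹ ∈ Subgroup.upperCentralSeries T i :=
        mul_mem_of_card_two_mul hle hc ((aut_mem_ucs_iff α _ x).2 hx) (inv_mem hx)
          (fun h' => hxi ((aut_mem_ucs_iff α _ x).1 h')) (fun h' => hxi (by simpa using inv_mem h'))
      exact cop h.hT α k hk hα x (α x * x⁻¹) (by group) (ih' _ hn)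
  exact key 4 le_rfl

end Cfsg.Agent.Lib.Helper82.Rud
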