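import Mathlib
import Cfsg.Agent.Lib.Helper82.Rud.Defs
import Cfsg.Agent.Lib.Helper2.PGroupFrattini

set_option autoImplicit false

namespace Cfsg.Agent.Lib.Helper82.Rud

open scoped commutatorElement

theorem wnormal {T : Type*} [Group T] [Finite T] {W : Subgroup T} (h : Hyp T W) : W.Normal := by
  rw [h.hW]
  infer_instance

theorem quot_comm {T : Type*} [Group T] [Finite T] (hT : IsPGroup 2 T) (W : Subgroup T) (a b : ↥W ⧸ frattini ↥W) : a * b = b * a := by
  haveI : Fact (Nat.Prime 2) := ⟨Nat.prime_two⟩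
  have hW : IsPGroup 2 ↥W := hT.to_subgroup W
  have hc := Cfsg.Agent.Lib.Helper2.commutator_le_frattini hW
  have := (Subgroup.Normal.quotient_commutative_iff_commutator_le (N := frattini ↥W)).2 hc
  exact this.is_comm.comm a b

theorem quot_sq {T : Type*} [Group T] [Finite T] (hT : IsPGroup 2 T) (W : Subgroup T) (a : ↥W ⧸ frattini ↥W) : a ^ 2 = 1 := by
  haveI : Fact (Nat.Prime 2) := ⟨Nat.prime_two⟩
  have hW : IsPGroup 2 ↥W := hT.to_subgroup W
  induction a using QuotientGroup.induction_on with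
  | H w =>
    rw [← QuotientGroup.mk_pow, QuotientGroup.eq_one_iff]
    exact Cfsg.Agent.Lib.Helper2.pow_p_mem_frattini hW w

theorem act_triv {T : Type*} [Group T] [Finite T] (hT : IsPGroup 2 T) (W : Subgroup T) [W.Normal] (w : T) (hw : w ∈ W) :
    act W w = 1 := by
  ext x
  induction x using QuotientGroup.induction_on with
  | H y =>
    rw [act_mk, MulAut.one_apply]
    have h1 : (MulAut.conjNormal w y : ↥W) = (⟨w, hw⟩ : ↥W) * y * (⟨w, hw⟩ : ↥W)⁻¹ := by
      apply Subtype.ext
      simp [MulAut.conjNormal_apply]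
    rw [h1, QuotientGroup.mk_mul, QuotientGroup.mk_mul, quot_comm hT W _ (y : ↥W ⧸ frattini ↥W),
      mul_assoc, ← QuotientGroup.mk_mul, mul_inv_cancel, QuotientGroup.mk_one, mul_one]

end Cfsg.Agent.Lib.Helper82.Rud
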