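import Mathlib
import Cfsg.Agent.Lib.Helper82.Rud.Defs
import Cfsg.Agent.Lib.Helper82.Rud.A2
import Cfsg.Agent.Lib.Helper82.Rud.BA

set_option autoImplicit false

namespace Cfsg.Agent.Lib.Helper82.Rud

open scoped commutatorElement

theorem aut_mod_W {T : Type*} [Group T] [Finite T] {W : Subgroup T} (h : Hyp T W) (α : MulAut T) (k : ℕ) (hk : Odd k) (hα : α ^ k = 1) : ∀ t : T, α t * t⁻¹ ∈ W := by
  intro t
  have hfix := aut_fix_Z4 h α k hk hα
  have h34 : Subgroup.upperCentralSeries T 3 ≤ Subgroup.upperCentralSeries T 4 :=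
    Subgroup.upperCentralSeries_mono T (by norm_num)
  rw [h.hW, Subgroup.mem_centralizer_iff]
  intro z hz
  have hz3 : z ∈ Subgroup.upperCentralSeries T 3 := hz
  have hz' : t⁻¹ * z * t ∈ Subgroup.upperCentralSeries T 3 := by
    have := (inferInstance : (Subgroup.upperCentralSeries T 3).Normal).conj_mem z hz3 t⁻¹
    simpa using this
  have h1 : α z = z := hfix z (h34 hz3)
  have h2 : α (t⁻¹ * z * t) = t⁻¹ * z * t := hfix _ (h34 hz')
  have h3 : z = α t * (t⁻¹ * z * t) * (α t)⁻¹ := by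
    calc z = α z := h1.symm
      _ = α (t * (t⁻¹ * z * t) * t⁻¹) := by congr 1; group
      _ = α t * (t⁻¹ * z * t) * (α t)⁻¹ := by rw [map_mul, map_mul, h2, map_inv]
  calc z * (α t * t⁻¹) = (α t * (t⁻¹ * z * t) * (α t)⁻¹) * (α t * t⁻¹) := by rw [← h3]
    _ = α t * t⁻¹ * z := by group

end Cfsg.Agent.Lib.Helper82.Rud
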