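import Mathlib
import Cfsg.Agent.Lib.Helper82.Rud.Defs
import Cfsg.Agent.Lib.Helper82.Rud.NC

set_option autoImplicit false

namespace Cfsg.Agent.Lib.Helper82.Rud

open scoped commutatorElement

/-- A normal subgroup of order at most `2 ^ j` of a finite 2-group lies in `Z_j`. -/
theorem normal_le_ucs {T : Type*} [Group T] [Finite T] (hT : IsPGroup 2 T) (N : Subgroup T) [N.Normal] (j : ℕ)
    (hN : Nat.card ↥N ≤ 2 ^ j) : N ≤ Subgroup.upperCentralSeries T j := by
  haveI : Fact (Nat.Prime 2) := ⟨Nat.prime_two⟩
  haveI : Group.IsNilpotent T := hT.isNilpotent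
  have key : ∀ i, ¬ N ≤ Subgroup.upperCentralSeries T i →
      2 ^ (i + 1) ≤ Nat.card ↥(N ⊓ Subgroup.upperCentralSeries T (i + 1)) := by
    intro i
    induction i with
    | zero =>
      intro h
      have h1 := nc_card N 0 h
      have h2 : 0 < Nat.card ↥(N ⊓ Subgroup.upperCentralSeries T 0) := Nat.card_pos
      simp only [zero_add, pow_one] at h1 ⊢
      omega
    | succ i ih =>
      intro h
      have h0 : ¬ N ≤ Subgroup.upperCentralSeries T i := fun h' =>
        h (h'.trans (Subgroup.upperCentralSeries_mono T (Nat.le_succ i)))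
      have h1 := nc_card N (i + 1) h
      have h2 := ih h0
      rw [pow_succ]
      omega
  by_contra h
  have h1 := key j h
  have h2 : Nat.card ↥(N ⊓ Subgroup.upperCentralSeries T (j + 1)) ≤ Nat.card ↥N :=
    Subgroup.card_le_of_le inf_le_left
  rw [pow_succ] at h1
  have h3 : 0 < 2 ^ j := by positivity
  omega

end Cfsg.Agent.Lib.Helper82.Rud
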