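import Mathlib
import Cfsg.Agent.Lib.Helper82.Rud.Defs
import Cfsg.Agent.Lib.Helper82.Rud.UC
import Cfsg.Agent.Lib.Helper82.Rud.NU
import Cfsg.Agent.Lib.Helper82.Rud.BA

set_option autoImplicit false

namespace Cfsg.Agent.Lib.Helper82.Rud

open scoped commutatorElement

theorem FE_normal {T : Type*} [Group T] (W : Subgroup T) [W.Normal] :
    ((frattini ↥W).map W.subtype).Normal := by
  refine ⟨?_⟩
  rintro _ ⟨w, hw, rfl⟩ t
  refine ⟨MulAut.conjNormal t w, ?_, ?_⟩
  · have h1 : MulAut.conjNormal t w ∈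
        (frattini ↥W).map ((MulAut.conjNormal t : MulAut ↥W) : ↥W →* ↥W) := ⟨w, hw, rfl⟩
    rw [frattini_map_conjNormal] at h1
    exact h1
  · exact MulAut.conjNormal_apply t w

theorem frat_eq {T : Type*} [Group T] [Finite T] {W : Subgroup T} (h : Hyp T W) :
    ∃ b ≤ 3, (frattini ↥W).map W.subtype = Subgroup.upperCentralSeries T b := by
  haveI : Fact (Nat.Prime 2) := ⟨Nat.prime_two⟩
  haveI := wnormal h
  haveI := FE_normal W
  have hcard : Nat.card ((frattini ↥W).map W.subtype) = Nat.card (frattini ↥W) :=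
    Subgroup.card_map_of_injective W.subtype_injective
  obtain ⟨b, hb⟩ := IsPGroup.iff_card.1 (h.hT.to_subgroup ((frattini ↥W).map W.subtype))
  have hb3 : b ≤ 3 := by
    have h1 : 2 ^ b ≤ 2 ^ 3 := by
      rw [← hb, hcard]
      exact h.hc
    exact (Nat.pow_le_pow_iff_right (by norm_num)).1 h1
  refine ⟨b, hb3, ?_⟩
  have hlt : 16 < Nat.card T := lt_of_lt_of_le (by norm_num) h.ha
  refine Subgroup.eq_of_le_of_card_ge (normal_le_ucs h.hT _ b hb.le) ?_
  rw [ucs_card h.hT h.hb hlt b (by omega), hb]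

end Cfsg.Agent.Lib.Helper82.Rud
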