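import Mathlib
import Cfsg.Agent.Lib.Helper82.Rud.Defs
import Cfsg.Agent.Lib.Helper82.Rud.UC
import Cfsg.Agent.Lib.Helper82.Rud.FE
import Cfsg.Agent.Lib.Helper82.Rud.BA

set_option autoImplicit false

namespace Cfsg.Agent.Lib.Helper82.Rud

open scoped commutatorElement

theorem FT_mem {T : Type*} [Group T] (W : Subgroup T) [W.Normal] {b : ℕ}
    (hb : (frattini ↥W).map W.subtype = Subgroup.upperCentralSeries T b) (w : ↥W)
    (hw : ∀ t : T, act W t (w : ↥W ⧸ frattini ↥W) = (w : ↥W ⧸ frattini ↥W)) :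
    (w : T) ∈ Subgroup.upperCentralSeries T (b + 1) := by
  rw [Subgroup.mem_upperCentralSeries_succ_iff]
  intro t
  have h1 := hw t
  rw [act_mk, eq_comm, QuotientGroup.eq] at h1
  have h2 : (w : T)⁻¹ * (t * w * t⁻¹) ∈ Subgroup.upperCentralSeries T b := by
    rw [← hb]
    exact ⟨_, h1, by simp [MulAut.conjNormal_apply]⟩
  have h3 : (w : T) * t * (w : T)⁻¹ * t⁻¹ = w * ((w : T)⁻¹ * (t * w * t⁻¹))⁻¹ * (w : T)⁻¹ := by
    group
  rw [commutatorElement_def, h3]
  exact (inferInstance : (Subgroup.upperCentralSeries T b).Normal).conj_mem _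
    (Subgroup.inv_mem _ h2) _

theorem fix_top {T : Type*} [Group T] [Finite T] {W : Subgroup T} (h : Hyp T W) [W.Normal] :
    Nat.card {a : ↥W ⧸ frattini ↥W // ∀ t : T, act W t a = a} ≤ 2 := by
  obtain ⟨b, hb3, hb⟩ := frat_eq h
  have hlt : 16 < Nat.card T := lt_of_lt_of_le (by norm_num) h.ha
  have hcb : Nat.card (frattini ↥W) = 2 ^ b := by
    rw [← ucs_card h.hT h.hb hlt b (by omega), ← hb]
    exact (Subgroup.card_map_of_injective W.subtype_injective).symm
  have hcb1 := ucs_card h.hT h.hb hlt (b + 1) (by omega)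
  have hmk : ∀ (a : ↥W ⧸ frattini ↥W) (φ : frattini ↥W),
      ((a.out * (φ : ↥W) : ↥W) : ↥W ⧸ frattini ↥W) = a := by
    intro a φ
    rw [QuotientGroup.mk_mul, (QuotientGroup.eq_one_iff (φ : ↥W)).2 φ.2, mul_one,
      QuotientGroup.out_eq']
  have hinj : Function.Injective
      (fun x : {a : ↥W ⧸ frattini ↥W // ∀ t : T, act W t a = a} × frattini ↥W =>
        (⟨((x.1.1.out * (x.2 : ↥W) : ↥W) : T), FT_mem W hb _ (by
          intro t
          rw [hmk]
          exact x.1.2 t)⟩ : Subgroup.upperCentralSeries T (b + 1))) := by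
    rintro ⟨⟨a, ha⟩, φ⟩ ⟨⟨a', ha'⟩, φ'⟩ hxy
    have h1 : (a.out * (φ : ↥W) : ↥W) = a'.out * (φ' : ↥W) := by
      have := congrArg Subtype.val hxy
      exact Subtype.ext this
    have h2 : a = a' := by
      rw [← hmk a φ, h1, hmk]
    subst h2
    have h3 : (φ : ↥W) = φ' := mul_left_cancel h1
    have h4 : φ = φ' := Subtype.ext h3
    rw [h4]
  have hle := Nat.card_le_card_of_injective _ hinj
  rw [Nat.card_prod, hcb, hcb1, pow_succ, mul_comm] at hle
  exact Nat.le_of_mul_le_mul_left hle (by positivity)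

end Cfsg.Agent.Lib.Helper82.Rud
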