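import Mathlib
import Cfsg.Agent.Lib.Helper82.Rud.Defs
import Cfsg.Agent.Lib.Helper82.Rud.UC

set_option autoImplicit false

namespace Cfsg.Agent.Lib.Helper82.Rud

open scoped commutatorElement

theorem IX_cases {T : Type*} [Group T] [Finite T] {A B : Subgroup T} (hAB : A ≤ B)
    (hcard : Nat.card B = 2 * Nat.card A) {e : T} (heB : e ∈ B) (heA : e ∉ A) :
    ∀ z ∈ B, z ∈ A ∨ e⁻¹ * z ∈ A := by
  have hidx : (A.subgroupOf B).index = 2 := by
    have e1 := Subgroup.index_mul_card (A.subgroupOf B)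
    rw [Nat.card_congr (Subgroup.subgroupOfEquivOfLe hAB).toEquiv, hcard] at e1
    exact Nat.eq_of_mul_eq_mul_right Nat.card_pos e1
  intro z hz
  by_cases hzA : z ∈ A
  · exact Or.inl hzA
  · right
    have h1 := Subgroup.mul_mem_iff_of_index_two hidx (a := (⟨e, heB⟩ : ↥B)⁻¹) (b := ⟨z, hz⟩)
    have h2 : ((⟨e, heB⟩ : ↥B)⁻¹ ∈ A.subgroupOf B ↔ (⟨z, hz⟩ : ↥B) ∈ A.subgroupOf B) := by
      rw [Subgroup.inv_mem_iff, Subgroup.mem_subgroupOf, Subgroup.mem_subgroupOf]
      exact ⟨fun hh => absurd hh heA, fun hh => absurd hh hzA⟩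
    exact Subgroup.mem_subgroupOf.1 (h1.2 h2)

theorem IX_card {T : Type*} [Group T] [Finite T] {W : Subgroup T} (h : Hyp T W) :
    ∀ i ≤ 4, Nat.card ↥(Subgroup.upperCentralSeries T i) = 2 ^ i :=
  ucs_card h.hT h.hb (lt_of_lt_of_le (by norm_num) h.ha)

theorem IX_exists {T : Type*} [Group T] [Finite T] {W : Subgroup T} (h : Hyp T W) (i : ℕ)
    (hi : i + 1 ≤ 4) : ∃ e ∈ Subgroup.upperCentralSeries T (i + 1),
      e ∉ Subgroup.upperCentralSeries T i := by
  rw [← SetLike.not_le_iff_exists]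
  intro hle
  have h1 := Subgroup.card_le_of_le hle
  rw [IX_card h (i + 1) hi, IX_card h i (by omega), pow_succ] at h1
  have : 0 < 2 ^ i := by positivity
  omega

theorem IX_cent {T : Type*} [Group T] [Finite T] {W : Subgroup T} (h : Hyp T W) {e2 e3 : T}
    (h2 : e2 ∈ Subgroup.upperCentralSeries T 2) (h2' : e2 ∉ Subgroup.upperCentralSeries T 1)
    (h3 : e3 ∈ Subgroup.upperCentralSeries T 3) (h3' : e3 ∉ Subgroup.upperCentralSeries T 2)
    (t : T) (c2 : t * e2 = e2 * t) (c3 : t * e3 = e3 * t) : t ∈ W := by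
  have hmono := Subgroup.upperCentralSeries_mono T
  have Z1 : Subgroup.upperCentralSeries T 1 ≤ Subgroup.centralizer {t} := by
    intro z hz
    rw [Subgroup.upperCentralSeries_one, Subgroup.mem_center_iff] at hz
    exact Subgroup.mem_centralizer_singleton_iff.2 (hz t).symm
  have Z2 : Subgroup.upperCentralSeries T 2 ≤ Subgroup.centralizer {t} := by
    intro z hz
    rcases IX_cases (hmono (by norm_num : 1 ≤ 2))
      (by rw [IX_card h 2 (by norm_num), IX_card h 1 (by norm_num)]; norm_num) h2 h2' z hz with hz1 | hz1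
    · exact Z1 hz1
    · have : z = e2 * (e2⁻¹ * z) := by group
      rw [this]
      exact Subgroup.mul_mem _ (Subgroup.mem_centralizer_singleton_iff.2 c2.symm) (Z1 hz1)
  have Z3 : Subgroup.upperCentralSeries T 3 ≤ Subgroup.centralizer {t} := by
    intro z hz
    rcases IX_cases (hmono (by norm_num : 2 ≤ 3))
      (by rw [IX_card h 3 (by norm_num), IX_card h 2 (by norm_num)]; norm_num) h3 h3' z hz with hz1 | hz1
    · exact Z2 hz1
    · have : z = e3 * (e3⁻¹ * z) := by group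
      rw [this]
      exact Subgroup.mul_mem _ (Subgroup.mem_centralizer_singleton_iff.2 c3.symm) (Z2 hz1)
  rw [h.hW]
  refine Subgroup.mem_centralizer_iff.2 fun z hz => ?_
  exact Subgroup.mem_centralizer_singleton_iff.1 (Z3 hz)

theorem IX_comm_mem {T : Type*} [Group T] {i : ℕ} {e : T}
    (he : e ∈ Subgroup.upperCentralSeries T (i + 1)) (t : T) :
    e⁻¹ * (t * e * t⁻¹) ∈ Subgroup.upperCentralSeries T i := by
  have := (Subgroup.mem_upperCentralSeries_succ_iff).1 (Subgroup.inv_mem _ he) t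
  rw [commutatorElement_def, inv_inv] at this
  simpa [mul_assoc] using this

/-- the pair of commutators with `e2`, `e3`. -/
def IX_map {T : Type*} [Group T] {e2 e3 : T} (h2 : e2 ∈ Subgroup.upperCentralSeries T 2)
    (h3 : e3 ∈ Subgroup.upperCentralSeries T 3) (t : T) :
    ↥(Subgroup.upperCentralSeries T 1) × ↥(Subgroup.upperCentralSeries T 2) :=
  (⟨_, IX_comm_mem h2 t⟩, ⟨_, IX_comm_mem h3 t⟩)

theorem IX_conj_eq_iff {T : Type*} [Group T] (e t t' : T) :
    e⁻¹ * (t * e * t⁻¹) = e⁻¹ * (t' * e * t'⁻¹) ↔ (t⁻¹ * t') * e = e * (t⁻¹ * t') := by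
  constructor
  · intro hh
    have h1 : t * e * t⁻¹ = t' * e * t'⁻¹ := mul_left_cancel hh
    calc (t⁻¹ * t') * e = t⁻¹ * (t' * e * t'⁻¹) * t' := by group
      _ = t⁻¹ * (t * e * t⁻¹) * t' := by rw [h1]
      _ = e * (t⁻¹ * t') := by group
  · intro hh
    congr 1
    calc t * e * t⁻¹ = t * (e * (t⁻¹ * t')) * t'⁻¹ := by group
      _ = t * ((t⁻¹ * t') * e) * t'⁻¹ := by rw [hh]
      _ = t' * e * t'⁻¹ := by group

theorem IX_map_eq_iff {T : Type*} [Group T] [Finite T] {W : Subgroup T} (h : Hyp T W) {e2 e3 : T}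
    (h2 : e2 ∈ Subgroup.upperCentralSeries T 2) (h2' : e2 ∉ Subgroup.upperCentralSeries T 1)
    (h3 : e3 ∈ Subgroup.upperCentralSeries T 3) (h3' : e3 ∉ Subgroup.upperCentralSeries T 2)
    (t t' : T) : IX_map h2 h3 t = IX_map h2 h3 t' ↔ t⁻¹ * t' ∈ W := by
  unfold IX_map
  rw [Prod.mk.injEq, Subtype.mk.injEq, Subtype.mk.injEq, IX_conj_eq_iff, IX_conj_eq_iff]
  constructor
  · rintro ⟨c2, c3⟩
    exact IX_cent h h2 h2' h3 h3' _ c2 c3
  · intro hW
    rw [h.hW] at hW
    have hc := Subgroup.mem_centralizer_iff.1 hW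
    exact ⟨(hc e2 (Subgroup.upperCentralSeries_mono T (by norm_num : 2 ≤ 3) h2)).symm,
      (hc e3 h3).symm⟩

/-- the induced injection `T ⧸ W → Z_1 × Z_2`. -/
def IX_quot {T : Type*} [Group T] [Finite T] {W : Subgroup T} (h : Hyp T W) {e2 e3 : T}
    (h2 : e2 ∈ Subgroup.upperCentralSeries T 2) (h2' : e2 ∉ Subgroup.upperCentralSeries T 1)
    (h3 : e3 ∈ Subgroup.upperCentralSeries T 3) (h3' : e3 ∉ Subgroup.upperCentralSeries T 2) :
    T ⧸ W → ↥(Subgroup.upperCentralSeries T 1) × ↥(Subgroup.upperCentralSeries T 2) :=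
  Quotient.lift (IX_map h2 h3) (fun a b hab =>
    (IX_map_eq_iff h h2 h2' h3 h3' a b).2 (QuotientGroup.leftRel_apply.1 hab))

theorem IX_quot_injective {T : Type*} [Group T] [Finite T] {W : Subgroup T} (h : Hyp T W)
    {e2 e3 : T}
    (h2 : e2 ∈ Subgroup.upperCentralSeries T 2) (h2' : e2 ∉ Subgroup.upperCentralSeries T 1)
    (h3 : e3 ∈ Subgroup.upperCentralSeries T 3) (h3' : e3 ∉ Subgroup.upperCentralSeries T 2) :
    Function.Injective (IX_quot h h2 h2' h3 h3') := by
  intro a b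
  induction a using QuotientGroup.induction_on with
  | H a =>
    induction b using QuotientGroup.induction_on with
    | H b =>
      intro hab
      exact QuotientGroup.eq.2 ((IX_map_eq_iff h h2 h2' h3 h3' a b).1 hab)

theorem IX_card_prod {T : Type*} [Group T] [Finite T] {W : Subgroup T} (h : Hyp T W) :
    Nat.card (↥(Subgroup.upperCentralSeries T 1) × ↥(Subgroup.upperCentralSeries T 2)) = 8 := by
  rw [Nat.card_prod, IX_card h 1 (by norm_num), IX_card h 2 (by norm_num)]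
  norm_num

theorem index_le {T : Type*} [Group T] [Finite T] {W : Subgroup T} (h : Hyp T W) : W.index ≤ 8 := by
  obtain ⟨e2, h2, h2'⟩ := IX_exists h 1 (by norm_num)
  obtain ⟨e3, h3, h3'⟩ := IX_exists h 2 (by norm_num)
  have := Nat.card_le_card_of_injective _ (IX_quot_injective h h2 h2' h3 h3')
  rw [IX_card_prod h] at this
  exact this

end Cfsg.Agent.Lib.Helper82.Rud
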