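import Mathlib
import Cfsg.Agent.Lib.Helper82.Rud.Defs

set_option autoImplicit false

namespace Cfsg.Agent.Lib.Helper82.Rud

open scoped commutatorElement

/-- An element outside a subgroup of relative index two, with its basic properties. -/
theorem exists_of_relIndex_two {D : Type*} [Group D] (K K1 : Subgroup D) (hK : K ≤ K1)
    (hidx : K.relIndex K1 = 2) :
    ∃ x ∈ K1, (∀ k ∈ K, x⁻¹ * k * x ∈ K) ∧ x * x ∈ K ∧
      ∀ y ∈ K1, y ∈ K ∨ ∃ k ∈ K, y = x * k := by
  have hi : (K.subgroupOf K1).index = 2 := hidx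
  obtain ⟨x, hx⟩ := Subgroup.index_eq_two_iff.mp hi
  have hxn : x ∉ K.subgroupOf K1 := by
    have := hx 1
    rw [one_mul] at this
    rcases this with ⟨_, h⟩ | ⟨_, h⟩
    · exact absurd (Subgroup.one_mem _) h
    · exact h
  have hxin : x⁻¹ ∉ K.subgroupOf K1 := fun h => hxn (by simpa using Subgroup.inv_mem _ h)
  refine ⟨x, x.2, ?_, ?_, ?_⟩
  · intro k hk
    have hk' : (⟨k, hK hk⟩ : ↥K1) ∈ K.subgroupOf K1 := Subgroup.mem_subgroupOf.mpr hk
    have h1 : x⁻¹ * ⟨k, hK hk⟩ ∉ K.subgroupOf K1 := by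
      rw [Subgroup.mul_mem_iff_of_index_two hi]
      exact fun h => hxin (h.mpr hk')
    have h2 : x⁻¹ * ⟨k, hK hk⟩ * x ∈ K.subgroupOf K1 := by
      rw [Subgroup.mul_mem_iff_of_index_two hi]
      exact ⟨fun h => absurd h h1, fun h => absurd h hxn⟩
    exact Subgroup.mem_subgroupOf.mp h2
  · have h2 : x * x ∈ K.subgroupOf K1 := by
      rw [Subgroup.mul_mem_iff_of_index_two hi]
    exact Subgroup.mem_subgroupOf.mp h2
  · intro y hy
    by_cases hyK : y ∈ K
    · exact Or.inl hyK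
    · right
      have hy' : (⟨y, hy⟩ : ↥K1) ∉ K.subgroupOf K1 := fun h => hyK (Subgroup.mem_subgroupOf.mp h)
      have h2 : x⁻¹ * ⟨y, hy⟩ ∈ K.subgroupOf K1 := by
        rw [Subgroup.mul_mem_iff_of_index_two hi]
        exact ⟨fun h => absurd h hxin, fun h => absurd h hy'⟩
      refine ⟨_, Subgroup.mem_subgroupOf.mp h2, ?_⟩
      simp

/-- One step of the fixed point bound. -/
theorem mb_step {D A : Type*} [Group D] [Group A] [Finite A] (φ : D →* MulAut A)
    (hc : ∀ a b : A, a * b = b * a) (h2 : ∀ a : A, a ^ 2 = 1) (K K1 : Subgroup D) (hK : K ≤ K1)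
    (hidx : K.relIndex K1 = 2) :
    Nat.card {a : A // ∀ k ∈ K, φ k a = a} ≤ (Nat.card {a : A // ∀ k ∈ K1, φ k a = a}) ^ 2 := by
  classical
  obtain ⟨x, hx1, hxc, hxx, hxy⟩ := exists_of_relIndex_two K K1 hK hidx
  have hsq : ∀ a : A, a * a = 1 := fun a => by rw [← sq]; exact h2 a
  -- `C_A(K)` is invariant under `x`
  have hinv : ∀ a : A, (∀ k ∈ K, φ k a = a) → ∀ k ∈ K, φ k (φ x a) = φ x a := by
    intro a ha k hk
    have e : k * x = x * (x⁻¹ * k * x) := by group
    calc φ k (φ x a) = φ (k * x) a := by rw [map_mul]; rfl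
      _ = φ (x * (x⁻¹ * k * x)) a := by rw [← e]
      _ = φ x (φ (x⁻¹ * k * x) a) := by rw [map_mul]; rfl
      _ = φ x a := by rw [ha _ (hxc k hk)]
  -- criterion for being fixed by `K1`
  have hcrit : ∀ c : A, (∀ k ∈ K, φ k c = c) → φ x c = c → ∀ y ∈ K1, φ y c = c := by
    intro c hcK hcx y hy
    rcases hxy y hy with h | ⟨k, hk, rfl⟩
    · exact hcK y h
    · calc φ (x * k) c = φ x (φ k c) := by rw [map_mul]; rfl
        _ = c := by rw [hcK k hk, hcx]
  have hxxa : ∀ a : A, (∀ k ∈ K, φ k a = a) → φ x (φ x a) = a := by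
    intro a ha
    calc φ x (φ x a) = φ (x * x) a := by rw [map_mul]; rfl
      _ = a := ha _ hxx
  -- the map `a ↦ a * φ x a`
  have hF : ∀ a : A, (∀ k ∈ K, φ k a = a) → ∀ y ∈ K1, φ y (a * φ x a) = a * φ x a := by
    intro a ha
    apply hcrit
    · intro k hk
      rw [map_mul, ha k hk, hinv a ha k hk]
    · rw [map_mul, hxxa a ha, hc]
  have hker : ∀ a b : A, (∀ k ∈ K, φ k a = a) → (∀ k ∈ K, φ k b = b) →
      a * φ x a = b * φ x b → ∀ y ∈ K1, φ y (a * b) = a * b := by
    intro a b ha hb hab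
    apply hcrit
    · intro k hk
      rw [map_mul, ha k hk, hb k hk]
    · rw [map_mul]
      have h1 : φ x a = a * (b * φ x b) := by
        rw [← hab, ← mul_assoc, hsq, one_mul]
      rw [h1]
      calc a * (b * φ x b) * φ x b = a * b * (φ x b * φ x b) := by
            simp only [mul_assoc]
        _ = a * b := by rw [hsq, mul_one]
  let S := {a : A // ∀ k ∈ K, φ k a = a}
  let S1 := {a : A // ∀ k ∈ K1, φ k a = a}
  let F : S → A := fun a => a.1 * φ x a.1
  let r : A → S := fun c => if h : ∃ b : S, F b = c then Classical.choose h else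
    ⟨1, fun k _ => map_one _⟩
  have hr : ∀ a : S, F (r (F a)) = F a := by
    intro a
    have h : ∃ b : S, F b = F a := ⟨a, rfl⟩
    have : r (F a) = Classical.choose h := dif_pos h
    rw [this]
    exact Classical.choose_spec h
  let g : S → S1 × S1 := fun a =>
    (⟨F a, hF a.1 a.2⟩, ⟨a.1 * (r (F a)).1, hker a.1 (r (F a)).1 a.2 (r (F a)).2 (hr a).symm⟩)
  have hg : Function.Injective g := by
    intro a b hab
    have h1 : F a = F b := congrArg (fun p => (p.1 : A)) hab
    have h3 : a.1 * (r (F a)).1 = b.1 * (r (F b)).1 := congrArg (fun p => (p.2 : A)) hab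
    rw [h1] at h3
    exact Subtype.ext (mul_right_cancel h3)
  have := Nat.card_le_card_of_injective g hg
  rw [Nat.card_prod, ← sq] at this
  exact this

end Cfsg.Agent.Lib.Helper82.Rud
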