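import Mathlib
import Cfsg.Agent.Lib.Helper82.Rud.Defs
import Cfsg.Agent.Lib.Helper82.Rud.MB1

set_option autoImplicit false

namespace Cfsg.Agent.Lib.Helper82.Rud

open scoped commutatorElement

/-- Fixed point bound: a 2-group `D` acting on an elementary abelian 2-group `A`:
`|C_A(K)| ≤ |C_A(D)| ^ |D : K|`. -/
theorem mb {D A : Type*} [Group D] [Finite D] [Group A] [Finite A] (φ : D →* MulAut A)
    (hD : IsPGroup 2 D) (hc : ∀ a b : A, a * b = b * a) (h2 : ∀ a : A, a ^ 2 = 1)
    (K : Subgroup D) :
    Nat.card {a : A // ∀ k ∈ K, φ k a = a} ≤ (Nat.card {a : A // ∀ d : D, φ d a = a}) ^ K.index := by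
  haveI : Fact (Nat.Prime 2) := ⟨Nat.prime_two⟩
  induction hn : K.index using Nat.strong_induction_on generalizing K with
  | _ N ih =>
    by_cases htop : K = ⊤
    · subst htop
      rw [Subgroup.index_top] at hn
      rw [← hn, pow_one]
      apply le_of_eq
      exact Nat.card_congr (Equiv.subtypeEquivRight (fun a => by simp))
    · obtain ⟨n, hKn⟩ := IsPGroup.iff_card.mp (hD.to_subgroup K)
      obtain ⟨m, hDm⟩ := IsPGroup.iff_card.mp hD
      have hnm : n < m := by
        by_contra h
        apply htop
        apply Subgroup.eq_top_of_le_card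
        rw [hKn, hDm]
        exact Nat.pow_le_pow_right (by norm_num) (by omega)
      obtain ⟨K1, hK1, hle⟩ := Sylow.exists_subgroup_card_pow_succ (p := 2) (n := n)
        (by rw [hDm]; exact pow_dvd_pow 2 (by omega)) hKn
      have e1 := Subgroup.card_mul_index K
      have e2 := Subgroup.card_mul_index K1
      have e3 := Subgroup.relIndex_mul_index hle
      have hpos1 : 0 < K1.index := Nat.pos_of_ne_zero Subgroup.index_ne_zero_of_finite
      have hrel : K.relIndex K1 = 2 := by
        rw [hKn, ← e3] at e1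
        rw [hK1, pow_succ] at e2
        have h3 : 2 ^ n * K1.index * K.relIndex K1 = 2 ^ n * K1.index * 2 := by
          calc 2 ^ n * K1.index * K.relIndex K1 = 2 ^ n * (K.relIndex K1 * K1.index) := by ring
            _ = Nat.card D := e1
            _ = 2 ^ n * 2 * K1.index := e2.symm
            _ = 2 ^ n * K1.index * 2 := by ring
        exact Nat.eq_of_mul_eq_mul_left (by positivity) h3
      rw [hrel] at e3
      have h4 := ih K1.index (by omega) K1 rfl
      have h5 := mb_step φ hc h2 K K1 hle hrel
      calc Nat.card {a : A // ∀ k ∈ K, φ k a = a}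
          ≤ (Nat.card {a : A // ∀ k ∈ K1, φ k a = a}) ^ 2 := h5
        _ ≤ ((Nat.card {a : A // ∀ d : D, φ d a = a}) ^ K1.index) ^ 2 := Nat.pow_le_pow_left h4 2
        _ = (Nat.card {a : A // ∀ d : D, φ d a = a}) ^ N := by
            rw [← pow_mul, ← hn, ← e3, mul_comm]

end Cfsg.Agent.Lib.Helper82.Rud
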