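import Mathlib
import Cfsg.Agent.Lib.Helper82.Rud.Defs
import Cfsg.Agent.Lib.Helper82.Rud.UC
import Cfsg.Agent.Lib.Helper82.Rud.IX
import Cfsg.Agent.Lib.Helper82.Rud.FE
import Cfsg.Agent.Lib.Helper82.Rud.FT
import Cfsg.Agent.Lib.Helper82.Rud.MB
import Cfsg.Agent.Lib.Helper82.Rud.BA

set_option autoImplicit false

namespace Cfsg.Agent.Lib.Helper82.Rud

open scoped commutatorElement

theorem orders {T : Type*} [Group T] [Finite T] {W : Subgroup T} (h : Hyp T W) :
    Nat.card T = 2 ^ 14 ∧ W.index = 8 ∧ Nat.card ↥(frattini ↥W) = 8 ∧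
      Nat.card (↥W ⧸ frattini ↥W) = 2 ^ 8 ∧ Nat.card ↥W = 2 ^ 11 ∧
      (frattini ↥W).map W.subtype = Subgroup.upperCentralSeries T 3 := by
  have hWn := wnormal h
  have hmb := mb (act W) h.hT (quot_comm h.hT W) (quot_sq h.hT W) W
  have hall : Nat.card {a : ↥W ⧸ frattini ↥W // ∀ k ∈ W, act W k a = a}
      = Nat.card (↥W ⧸ frattini ↥W) := by
    apply Nat.card_congr
    apply Equiv.subtypeUnivEquiv
    intro a k hk
    rw [act_triv h.hT W k hk]
    rfl
  rw [hall] at hmb
  have hfix := fix_top h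
  have hA : Nat.card (↥W ⧸ frattini ↥W) ≤ 2 ^ W.index :=
    hmb.trans (Nat.pow_le_pow_left hfix _)
  have h1 := Subgroup.card_mul_index W
  have h2 := Subgroup.card_eq_card_quotient_mul_card_subgroup (frattini ↥W)
  have hn8 := index_le h
  have hn0 : 0 < W.index := Nat.pos_of_ne_zero Subgroup.index_ne_zero_of_finite
  have hΦ := h.hc
  have hT := h.ha
  rw [← h1, h2] at hT
  have hP := Nat.mul_le_mul hA hΦ
  generalize hn : W.index = n at *
  generalize hAe : Nat.card (↥W ⧸ frattini ↥W) = A at *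
  generalize hΦe : Nat.card ↥(frattini ↥W) = Φ at *
  generalize hPe : A * Φ = P at *
  have hn' : n = 8 := by
    interval_cases n <;> omega
  subst hn'
  have hP' : P = 2048 := by omega
  have hA' : A = 256 := by
    by_contra hne
    have : A ≤ 255 := by omega
    have := Nat.mul_le_mul this hΦ
    omega
  have hΦ' : Φ = 8 := by
    by_contra hne
    have : Φ ≤ 7 := by omega
    have := Nat.mul_le_mul hA this
    omega
  subst hA' hΦ'
  have hW : Nat.card ↥W = 2 ^ 11 := by rw [h2, hP']; norm_num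
  refine ⟨by rw [← h1, hW]; norm_num, rfl, rfl, by norm_num, hW, ?_⟩
  obtain ⟨b, hb, hbe⟩ := frat_eq h
  have hc1 : Nat.card ↥((frattini ↥W).map W.subtype) = 8 := by
    rw [Subgroup.card_map_of_injective W.subtype_injective, hΦe]
  have hc2 := ucs_card h.hT h.hb (by have := h.ha; omega) b (by omega)
  rw [← hbe, hc1] at hc2
  have : b = 3 := by
    interval_cases b <;> simp_all
  rw [hbe, this]

end Cfsg.Agent.Lib.Helper82.Rud
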