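import Mathlib
import Cfsg.Agent.Lib.Helper82.Rud.Defs
import Cfsg.Agent.Lib.Helper2.PGroupFrattini
import Cfsg.Agent.Lib.Helper82.Rud.OR
import Cfsg.Agent.Lib.Helper82.Rud.BA

set_option autoImplicit false

namespace Cfsg.Agent.Lib.Helper82.Rud

open scoped commutatorElement

theorem Z3_le {T : Type*} [Group T] [Finite T] {W : Subgroup T} (h : Hyp T W) : Subgroup.upperCentralSeries T 3 ≤ W := by
  rw [← (orders h).2.2.2.2.2]
  exact Subgroup.map_subtype_le _

theorem Z3_comm {T : Type*} [Group T] [Finite T] {W : Subgroup T} (h : Hyp T W) : ∀ z ∈ Subgroup.upperCentralSeries T 3, ∀ w ∈ W, z * w = w * z := by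
  intro z hz w hw
  rw [h.hW] at hw
  exact Subgroup.mem_centralizer_iff.1 hw z hz

theorem sq_mem {T : Type*} [Group T] [Finite T] {W : Subgroup T} (h : Hyp T W) : ∀ w ∈ W, w ^ 2 ∈ Subgroup.upperCentralSeries T 3 := by
  intro w hw
  haveI : Fact (Nat.Prime 2) := ⟨Nat.prime_two⟩
  rw [← (orders h).2.2.2.2.2]
  exact ⟨(⟨w, hw⟩ : ↥W) ^ 2, Helper2.pow_p_mem_frattini (h.hT.to_subgroup W) _, rfl⟩

theorem comm_mem {T : Type*} [Group T] [Finite T] {W : Subgroup T} (h : Hyp T W) : ∀ x ∈ W, ∀ y ∈ W, ⁅x, y⁆ ∈ Subgroup.upperCentralSeries T 3 := by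
  intro x hx y hy
  haveI : Fact (Nat.Prime 2) := ⟨Nat.prime_two⟩
  rw [← (orders h).2.2.2.2.2]
  refine ⟨⁅(⟨x, hx⟩ : ↥W), ⟨y, hy⟩⁆, Helper2.commutator_le_frattini (h.hT.to_subgroup W) ?_, rfl⟩
  exact Subgroup.commutator_mem_commutator (Subgroup.mem_top _) (Subgroup.mem_top _)

theorem hd' {T : Type*} [Group T] [Finite T] {W : Subgroup T} (h : Hyp T W) : ∀ U : Subgroup T, U ≤ W → Nat.card ↥W ≤ 16 * Nat.card ↥U →
    Subgroup.upperCentralSeries T 3 ≤ U := by
  intro U hU hcard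
  have h1 : (U.subgroupOf W).index ≤ 16 := by
    have h2 : U.relIndex W * Nat.card U = Nat.card W := by
      have e1 := Subgroup.index_mul_card (U.subgroupOf W)
      rwa [Nat.card_congr (Subgroup.subgroupOfEquivOfLe hU).toEquiv] at e1
    have h3 : 0 < Nat.card U := Nat.card_pos
    rw [← h2] at hcard
    exact Nat.le_of_mul_le_mul_right hcard h3
  have h4 := h.hd _ h1
  rw [← (orders h).2.2.2.2.2]
  rintro _ ⟨x, hx, rfl⟩
  exact Subgroup.mem_subgroupOf.1 (h4 hx)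

end Cfsg.Agent.Lib.Helper82.Rud
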