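import Mathlib
import Cfsg.Agent.Lib.Helper82.Rud.Defs
import Cfsg.Agent.Lib.Helper82.Rud.A2
import Cfsg.Agent.Lib.Helper82.Rud.A3
import Cfsg.Agent.Lib.Helper82.Rud.CP
import Cfsg.Agent.Lib.Helper82.Rud.HD
import Cfsg.Agent.Lib.Helper82.Rud.BA

set_option autoImplicit false

namespace Cfsg.Agent.Lib.Helper82.Rud

open scoped commutatorElement

theorem aut_mod_Z {T : Type*} [Group T] [Finite T] {W : Subgroup T} (h : Hyp T W) (α : MulAut T) (k : ℕ) (hk : Odd k) (hα : α ^ k = 1) :
    ∀ w ∈ W, α w * w⁻¹ ∈ Subgroup.upperCentralSeries T 3 := by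
  have hWn : W.Normal := wnormal h
  have hfix := aut_fix_Z4 h α k hk hα
  have hmodW := aut_mod_W h α k hk hα
  set Z := Subgroup.upperCentralSeries T 3 with hZ
  let π := QuotientGroup.mk' Z
  have hπ : ∀ a, π a = 1 ↔ a ∈ Z := fun a => QuotientGroup.eq_one_iff a
  have hcomm : ∀ a ∈ W, ∀ b ∈ W, π a * π b = π b * π a := by
    intro a ha b hb
    have h1 : π ⁅a, b⁆ = 1 := (hπ _).2 (comm_mem h a ha b hb)
    rw [commutatorElement_def, map_mul, map_mul, map_mul, map_inv, map_inv] at h1
    calc π a * π b = (π a * π b * (π a)⁻¹ * (π b)⁻¹) * (π b * π a) := by group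
      _ = π b * π a := by rw [h1, one_mul]
  have key : ∀ j : ℕ, ∀ w ∈ W, w ∈ Subgroup.upperCentralSeries T j → α w * w⁻¹ ∈ Z := by
    intro j
    induction j with
    | zero =>
      intro w _ hw
      rw [Subgroup.upperCentralSeries_zero, Subgroup.mem_bot] at hw
      rw [hw]
      simp
    | succ j ih =>
      intro w hwW hw
      set x := α w * w⁻¹ with hx
      have hxW : x ∈ W := hmodW w
      have hαw : α w = x * w := by rw [hx]; group
      have claim : ∀ t : T, t * x * t⁻¹ * x⁻¹ ∈ Z := by
        intro t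
        set w' := t * w * t⁻¹ * w⁻¹ with hw'
        have hw'W : w' ∈ W := W.mul_mem (hWn.conj_mem w hwW t) (W.inv_mem hwW)
        have hw'j : w' ∈ Subgroup.upperCentralSeries T j := by
          have h1 := (Subgroup.mem_upperCentralSeries_succ_iff).1 hw t
          have h2 := inv_mem h1
          have h3 : ⁅w, t⁆⁻¹ = w' := by rw [hw', commutatorElement_def]; group
          rwa [h3] at h2
        have hP : π (α w') = π w' := by
          have h1 := (hπ _).2 (ih w' hw'W hw'j)
          rw [map_mul, map_inv] at h1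
          exact mul_inv_eq_one.1 h1
        set c := t⁻¹ * α t with hc
        have hcW : c ∈ W := by
          have h1 := hWn.conj_mem _ (hmodW t) t⁻¹
          have h2 : t⁻¹ * (α t * t⁻¹) * t⁻¹⁻¹ = c := by rw [hc]; group
          rwa [h2] at h1
        have hαt : α t = t * c := by rw [hc]; group
        have e1 : π (α w') = π t * π c * (π x * π w) * (π c)⁻¹ * (π t)⁻¹ * (π x * π w)⁻¹ := by
          have e0 : α w' = (t * c) * (x * w) * (t * c)⁻¹ * (x * w)⁻¹ := by
            rw [hw', map_mul, map_mul, map_mul, map_inv, map_inv, ← hαt, ← hαw]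
          rw [e0]
          simp only [map_mul, map_inv, mul_inv_rev]
          group
        have e2 : π c * (π x * π w) = (π x * π w) * π c := by
          rw [← map_mul, hcomm c hcW (x * w) (W.mul_mem hxW hwW)]
        have e3 : π x * π w' = π w' * π x := hcomm x hxW w' hw'W
        have e3' : π w' * (π x)⁻¹ = (π x)⁻¹ * π w' := by
          calc π w' * (π x)⁻¹ = (π x)⁻¹ * (π x * π w') * (π x)⁻¹ := by group
            _ = (π x)⁻¹ * (π w' * π x) * (π x)⁻¹ := by rw [e3]
            _ = (π x)⁻¹ * π w' := by group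
        have e4 : π w' = π t * π w * (π t)⁻¹ * (π w)⁻¹ := by
          rw [hw']; simp only [map_mul, map_inv]
        have e5 : π (α w') = (π t * π x * (π t)⁻¹ * (π x)⁻¹) * π w' := by
          calc π (α w') = π t * (π c * (π x * π w)) * (π c)⁻¹ * (π t)⁻¹ * (π x * π w)⁻¹ := by
                rw [e1]; group
            _ = π t * π x * (π t)⁻¹ * (π t * π w * (π t)⁻¹ * (π w)⁻¹) * (π x)⁻¹ := by
                rw [e2]; group
            _ = π t * π x * (π t)⁻¹ * (π w' * (π x)⁻¹) := by
                rw [← e4]; group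
            _ = (π t * π x * (π t)⁻¹ * (π x)⁻¹) * π w' := by
                rw [e3']; group
        rw [hP] at e5
        have e6 : π t * π x * (π t)⁻¹ * (π x)⁻¹ = 1 := mul_eq_right.1 e5.symm
        rw [← hπ]
        simpa only [map_mul, map_inv] using e6
      have hx4 : x ∈ Subgroup.upperCentralSeries T 4 := by
        rw [show (4 : ℕ) = 3 + 1 from rfl, Subgroup.mem_upperCentralSeries_succ_iff]
        intro t
        have h1 := inv_mem (claim t)
        have h2 : (t * x * t⁻¹ * x⁻¹)⁻¹ = ⁅x, t⁆ := by rw [commutatorElement_def]; group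
        rwa [h2] at h1
      have h5 : α w = w := cop h.hT α k hk hα w x hαw (hfix x hx4)
      have h6 : x = 1 := by rw [hx, h5, mul_inv_cancel]
      rw [h6]
      exact Z.one_mem
  intro w hw
  have : Fact (Nat.Prime 2) := ⟨Nat.prime_two⟩
  have hnil : Group.IsNilpotent T := h.hT.isNilpotent
  obtain ⟨n, hn⟩ := hnil.nilpotent'
  exact key n w hw (by rw [hn]; exact Subgroup.mem_top w)

end Cfsg.Agent.Lib.Helper82.Rud
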