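import Mathlib
import Cfsg.Agent.Lib.Helper82.Rud.Defs
import Cfsg.Agent.Lib.Helper82.Rud.A2
import Cfsg.Agent.Lib.Helper82.Rud.A3
import Cfsg.Agent.Lib.Helper82.Rud.A4
import Cfsg.Agent.Lib.Helper82.Rud.CP

set_option autoImplicit false

namespace Cfsg.Agent.Lib.Helper82.Rud

open scoped commutatorElement

theorem aut_trivial {T : Type*} [Group T] [Finite T] {W : Subgroup T} (h : Hyp T W) (α : MulAut T) (k : ℕ) (hk : Odd k) (hα : α ^ k = 1) : α = 1 := by
  have hfix := aut_fix_Z4 h α k hk hα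
  have hmodW := aut_mod_W h α k hk hα
  have hmodZ := aut_mod_Z h α k hk hα
  have h34 : Subgroup.upperCentralSeries T 3 ≤ Subgroup.upperCentralSeries T 4 :=
    Subgroup.upperCentralSeries_mono T (by norm_num)
  have hW : ∀ w ∈ W, α w = w := fun w hw =>
    cop h.hT α k hk hα w (α w * w⁻¹) (by group) (hfix _ (h34 (hmodZ w hw)))
  ext t
  rw [MulAut.one_apply]
  exact cop h.hT α k hk hα t (α t * t⁻¹) (by group) (hW _ (hmodW t))

end Cfsg.Agent.Lib.Helper82.Rud
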