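import Mathlib
import Cfsg.Agent.Lib.Helper82.Rud.Defs
import Cfsg.Agent.Lib.Helper82.Rud.UC
import Cfsg.Agent.Lib.Helper82.Rud.NC
import Cfsg.Agent.Lib.Helper82.Rud.OR
import Cfsg.Agent.Lib.Helper82.Rud.HD
import Cfsg.Agent.Lib.Helper82.Rud.BA

set_option autoImplicit false

namespace Cfsg.Agent.Lib.Helper82.Rud

open scoped commutatorElement

/-- two elements outside a subgroup of index two differ by an element of it -/
theorem C1_idx2 {T : Type*} [Group T] [Finite T] (A B : Subgroup T) (hAB : A ≤ B)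
    (hc : Nat.card B = 2 * Nat.card A) {x y : T} (hx : x ∈ B) (hxA : x ∉ A) (hy : y ∈ B)
    (hyA : y ∉ A) : x⁻¹ * y ∈ A := by
  have hidx : (A.subgroupOf B).index = 2 := by
    have h1 := Subgroup.index_mul_card (A.subgroupOf B)
    have h2 : Nat.card (A.subgroupOf B) = Nat.card A :=
      Nat.card_congr (Subgroup.subgroupOfEquivOfLe hAB).toEquiv
    rw [h2, hc] at h1
    have hpos : 0 < Nat.card A := Nat.card_pos
    exact Nat.eq_of_mul_eq_mul_right hpos h1
  have h3 := Subgroup.mul_mem_iff_of_index_two hidx (a := (⟨x, hx⟩ : B)⁻¹) (b := ⟨y, hy⟩)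
  have h4 : ((⟨x, hx⟩ : B)⁻¹ * ⟨y, hy⟩) ∈ A.subgroupOf B := by
    rw [h3, inv_mem_iff]
    constructor
    · intro h; exact absurd (Subgroup.mem_subgroupOf.1 h) hxA
    · intro h; exact absurd (Subgroup.mem_subgroupOf.1 h) hyA
  exact Subgroup.mem_subgroupOf.1 h4

theorem center_contains {T : Type*} [Group T] [Finite T] {W : Subgroup T} (h : Hyp T W) (hne : Nat.card ↥(Subgroup.center ↥W) ≠ 8) :
    ∀ u ∈ Subgroup.upperCentralSeries T 4, ∀ w ∈ W, u * w = w * u := by
  have hWn : W.Normal := wnormal h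
  have hcard := ucs_card h.hT h.hb (lt_of_lt_of_le (by norm_num) h.ha)
  have hmono : Monotone (Subgroup.upperCentralSeries T) := Subgroup.upperCentralSeries_mono T
  have h34 : Subgroup.upperCentralSeries T 3 ≤ Subgroup.upperCentralSeries T 4 := hmono (by norm_num)
  have memCW : ∀ x : T, x ∈ (Subgroup.center ↥W).map W.subtype ↔
      x ∈ W ∧ ∀ w ∈ W, w * x = x * w := by
    intro x
    constructor
    · rintro ⟨y, hy, rfl⟩
      refine ⟨y.2, fun w hw => ?_⟩
      have := Subgroup.mem_center_iff.1 hy ⟨w, hw⟩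
      exact congrArg Subtype.val this
    · rintro ⟨hx, hxw⟩
      refine ⟨⟨x, hx⟩, ?_, rfl⟩
      rw [SetLike.mem_coe, Subgroup.mem_center_iff]
      intro g
      exact Subtype.ext (hxw g.1 g.2)
  have hCWn : ((Subgroup.center ↥W).map W.subtype).Normal := by
    constructor
    intro x hx t
    rw [memCW] at hx ⊢
    refine ⟨hWn.conj_mem x hx.1 t, fun w hw => ?_⟩
    have h1 : t⁻¹ * w * t ∈ W := by
      have := hWn.conj_mem w hw t⁻¹
      rwa [inv_inv] at this
    have h2 := hx.2 _ h1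
    calc w * (t * x * t⁻¹) = t * ((t⁻¹ * w * t) * x) * t⁻¹ := by group
      _ = t * (x * (t⁻¹ * w * t)) * t⁻¹ := by rw [h2]
      _ = t * x * t⁻¹ * w := by group
  have hZ3 : Subgroup.upperCentralSeries T 3 ≤ (Subgroup.center ↥W).map W.subtype := by
    intro z hz
    rw [memCW]
    exact ⟨Z3_le h hz, fun w hw => (Z3_comm h z hz w hw).symm⟩
  have hnot : ¬ (Subgroup.center ↥W).map W.subtype ≤ Subgroup.upperCentralSeries T 3 := by
    intro hle
    have heq := le_antisymm hle hZ3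
    apply hne
    have h1 : Nat.card ↥((Subgroup.center ↥W).map W.subtype) = Nat.card ↥(Subgroup.center ↥W) :=
      Subgroup.card_map_of_injective W.subtype_injective
    rw [← h1, heq, hcard 3 (by norm_num)]
    norm_num
  haveI : Fact (Nat.Prime 2) := ⟨Nat.prime_two⟩
  haveI : Group.IsNilpotent T := h.hT.isNilpotent
  obtain ⟨x, hxL, hx4, hx3⟩ := nc ((Subgroup.center ↥W).map W.subtype) 3 hnot
  rw [memCW] at hxL
  intro u hu w hw
  by_cases hu3 : u ∈ Subgroup.upperCentralSeries T 3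
  · exact Z3_comm h u hu3 w hw
  · have h5 := C1_idx2 _ _ h34 (by rw [hcard 4 (by norm_num), hcard 3 (by norm_num)]; norm_num)
      hx4 hx3 hu hu3
    obtain ⟨v, hv, rfl⟩ : ∃ v ∈ Subgroup.upperCentralSeries T 3, u = x * v :=
      ⟨x⁻¹ * u, h5, by group⟩
    rw [mul_assoc, Z3_comm h v hv w hw, ← mul_assoc, ← hxL.2 w hw, mul_assoc]

end Cfsg.Agent.Lib.Helper82.Rud
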