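import Mathlib
import Cfsg.Agent.Lib.Helper82.Rud.Defs

set_option autoImplicit false

namespace Cfsg.Agent.Lib.Helper82.Rud

open scoped commutatorElement

theorem h74_relIndex_mul_card {T : Type*} [Group T] {H K : Subgroup T} (h : H ≤ K) :
    H.relIndex K * Nat.card ↥H = Nat.card ↥K := by
  have h1 := Subgroup.card_mul_index (H.subgroupOf K)
  rw [Nat.card_congr (Subgroup.subgroupOfEquivOfLe h).toEquiv] at h1
  rw [Subgroup.relIndex, mul_comm]; exact h1

/-- Hyperplane lemma: if `Ω / M` has exponent 2 and `z ∈ Ω \ M`, some subgroup of index 2 of `Ω`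
containing `M` misses `z`. -/
theorem hyperplane {T : Type*} [Group T] [Finite T] (Ω M : Subgroup T) (hM : M ≤ Ω) (h2 : ∀ a ∈ Ω, a ^ 2 ∈ M)
    (hn : ∀ a ∈ Ω, ∀ m ∈ M, a * m * a⁻¹ ∈ M) (z : T) (hz : z ∈ Ω) (hzM : z ∉ M) :
    ∃ U : Subgroup T, M ≤ U ∧ U ≤ Ω ∧ z ∉ U ∧ Nat.card ↥Ω = 2 * Nat.card ↥U := by
  classical
  have hcomm : ∀ a ∈ Ω, ∀ b ∈ Ω, a * b * a⁻¹ * b⁻¹ ∈ M := by
    intro a ha b hb
    have h1 : (a * b) ^ 2 ∈ M := h2 _ (Ω.mul_mem ha hb)
    have h2' : (a⁻¹) ^ 2 ∈ M := h2 _ (Ω.inv_mem ha)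
    have h3 : (b⁻¹) ^ 2 ∈ M := h2 _ (Ω.inv_mem hb)
    have h4 : b⁻¹ * (a⁻¹)^2 * (b⁻¹)⁻¹ ∈ M := hn _ (Ω.inv_mem hb) _ h2'
    have : a * b * a⁻¹ * b⁻¹ = (a * b) ^ 2 * (b⁻¹ * (a⁻¹)^2 * (b⁻¹)⁻¹) * (b⁻¹)^2 := by
      rw [pow_two (a * b)]; group
    rw [this]; exact M.mul_mem (M.mul_mem h1 h4) h3
  have hnU : ∀ U : Subgroup T, M ≤ U → U ≤ Ω → ∀ a ∈ Ω, ∀ u ∈ U, a * u * a⁻¹ ∈ U := by
    intro U hMU hUΩ a ha u hu
    have h1 := hMU (hcomm a ha u (hUΩ hu))
    have : a * u * a⁻¹ = (a * u * a⁻¹ * u⁻¹) * u := by group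
    rw [this]; exact U.mul_mem h1 hu
  obtain ⟨U, hU⟩ := Set.Finite.exists_maximal
    (s := {U : Subgroup T | M ≤ U ∧ U ≤ Ω ∧ z ∉ U}) (Set.toFinite _) ⟨M, le_refl _, hM, hzM⟩
  obtain ⟨⟨hMU, hUΩ, hzU⟩, hmax⟩ := hU
  have key : ∀ a ∈ Ω, a ∉ U → a * z ∈ U := by
    intro a ha haU
    have hN := hnU U hMU hUΩ a ha
    have ha2 : a ^ 2 ∈ U := hMU (h2 a ha)
    let U' : Subgroup T :=
      { carrier := {x | x ∈ U ∨ a * x ∈ U}
        one_mem' := Or.inl U.one_mem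
        mul_mem' := by
          rintro x y (hx | hx) (hy | hy)
          · exact Or.inl (U.mul_mem hx hy)
          · right
            have : a * (x * y) = (a * x * a⁻¹) * (a * y) := by group
            rw [this]; exact U.mul_mem (hN x hx) hy
          · right
            have : a * (x * y) = (a * x) * y := by group
            rw [this]; exact U.mul_mem hx hy
          · left
            have : x * y = (a ^ 2)⁻¹ * (a * (a * x) * a⁻¹) * (a * y) := by group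
            rw [this]; exact U.mul_mem (U.mul_mem (U.inv_mem ha2) (hN _ hx)) hy
        inv_mem' := by
          rintro x (hx | hx)
          · exact Or.inl (U.inv_mem hx)
          · right
            have : a * x⁻¹ = (a * (a * x)⁻¹ * a⁻¹) * a ^ 2 := by group
            rw [this]; exact U.mul_mem (hN _ (U.inv_mem hx)) ha2 }
    have hUU' : U ≤ U' := fun x hx => Or.inl hx
    have haU' : a⁻¹ ∈ U' := Or.inr (by simp)
    by_contra hcon
    have hzU' : z ∉ U' := by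
      rintro (h | h)
      · exact hzU h
      · exact hcon h
    have hU'Ω : U' ≤ Ω := by
      rintro x (h | h)
      · exact hUΩ h
      · have : x = a⁻¹ * (a * x) := by group
        rw [this]; exact Ω.mul_mem (Ω.inv_mem ha) (hUΩ h)
    have := hmax (y := U') ⟨hMU.trans hUU', hU'Ω, hzU'⟩ hUU'
    exact haU (by simpa using U.inv_mem (this haU'))
  refine ⟨U, hMU, hUΩ, hzU, ?_⟩
  have hidx : (U.subgroupOf Ω).index = 2 := by
    rw [Subgroup.index_eq_two_iff]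
    refine ⟨⟨z, hz⟩, fun b => ?_⟩
    simp only [Subgroup.mem_subgroupOf, Subgroup.coe_mul]
    by_cases hb : (b : T) ∈ U
    · right
      refine ⟨hb, fun h => hzU ?_⟩
      have : z = (b : T)⁻¹ * ((b : T) * z) := by group
      rw [this]; exact U.mul_mem (U.inv_mem hb) h
    · left
      exact ⟨key _ b.2 hb, hb⟩
  have := h74_relIndex_mul_card hUΩ
  rw [Subgroup.relIndex, hidx] at this
  exact this.symm

end Cfsg.Agent.Lib.Helper82.Rud
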