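import Mathlib
import Cfsg.Agent.Lib.Helper82.Rud.Defs
import Cfsg.Agent.Lib.Helper82.Rud.HP

set_option autoImplicit false

namespace Cfsg.Agent.Lib.Helper82.Rud

open scoped commutatorElement

/-- Key lemma: a subgroup of index at most 4 missing `Z`. -/
theorem key {T : Type*} [Group T] [Finite T] (D Z Y : Subgroup T) (hYZ : Y ≤ Z) (hZD : Z ≤ D)
    (hcard : Nat.card ↥Z = 2 * Nat.card ↥Y)
    (hcen : ∀ z ∈ Z, ∀ d ∈ D, z * d = d * z) (hsq : ∀ d ∈ D, d ^ 2 ∈ Z)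
    (hcomm : ∀ x ∈ D, ∀ y ∈ D, ⁅x, y⁆ ∈ Y) :
    ∃ U : Subgroup T, U ≤ D ∧ Nat.card ↥D ≤ 4 * Nat.card ↥U ∧ ¬ Z ≤ U := by
  classical
  have hYpos : 0 < Nat.card ↥Y := Nat.card_pos
  have hidx : (Y.subgroupOf Z).index = 2 := by
    have h1 := h74_relIndex_mul_card hYZ
    rw [hcard] at h1
    exact Nat.eq_of_mul_eq_mul_right hYpos h1
  have hmul : ∀ a ∈ Z, ∀ b ∈ Z, (a * b ∈ Y ↔ (a ∈ Y ↔ b ∈ Y)) := by
    intro a ha b hb
    have := Subgroup.mul_mem_iff_of_index_two hidx (a := ⟨a, ha⟩) (b := ⟨b, hb⟩)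
    simpa [Subgroup.mem_subgroupOf] using this
  have hform : ∀ x ∈ D, ∀ y ∈ D, ((x * y) ^ 2 ∈ Y ↔ (x ^ 2 ∈ Y ↔ y ^ 2 ∈ Y)) := by
    intro x hx y hy
    have hc : ⁅x⁻¹, y⁆ ∈ Y := hcomm _ (D.inv_mem hx) _ hy
    have he : (x * y) ^ 2 = x ^ 2 * ⁅x⁻¹, y⁆ * y ^ 2 := by
      rw [commutatorElement_def, pow_two (x * y)]; group
    rw [he, hmul _ (Z.mul_mem (hsq x hx) (hYZ hc)) _ (hsq y hy), hmul _ (hsq x hx) _ (hYZ hc)]
    simp [hc]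
  let Ω : Subgroup T :=
    { carrier := {x | x ∈ D ∧ x ^ 2 ∈ Y}
      one_mem' := ⟨D.one_mem, by simp⟩
      mul_mem' := by
        rintro x y ⟨hx, hx2⟩ ⟨hy, hy2⟩
        exact ⟨D.mul_mem hx hy, (hform x hx y hy).2 (by simp [hx2, hy2])⟩
      inv_mem' := by
        rintro x ⟨hx, hx2⟩
        exact ⟨D.inv_mem hx, by rw [inv_pow]; exact Y.inv_mem hx2⟩ }
  have hΩmem : ∀ x, x ∈ Ω ↔ (x ∈ D ∧ x ^ 2 ∈ Y) := fun x => Iff.rfl
  have hΩD : Ω ≤ D := fun x hx => hx.1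
  have hDΩ : Nat.card ↥D ≤ 2 * Nat.card ↥Ω := by
    by_cases hall : D ≤ Ω
    · have : Ω = D := le_antisymm hΩD hall
      rw [this]; omega
    · obtain ⟨x0, hx0D, hx0⟩ := SetLike.not_le_iff_exists.mp hall
      have hx02 : x0 ^ 2 ∉ Y := fun h => hx0 ⟨hx0D, h⟩
      have hi : (Ω.subgroupOf D).index = 2 := by
        rw [Subgroup.index_eq_two_iff]
        refine ⟨⟨x0, hx0D⟩, fun b => ?_⟩
        simp only [Subgroup.mem_subgroupOf, Subgroup.coe_mul, hΩmem]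
        have hf := hform b b.2 x0 hx0D
        by_cases hb : (b : T) ^ 2 ∈ Y
        · right
          refine ⟨⟨b.2, hb⟩, fun h => ?_⟩
          exact hx02 ((hf.1 h.2).1 hb)
        · left
          refine ⟨⟨D.mul_mem b.2 hx0D, hf.2 ?_⟩, fun h => hb h.2⟩
          simp [hb, hx02]
      have := h74_relIndex_mul_card hΩD
      rw [Subgroup.relIndex, hi] at this
      exact this.symm.le
  have hz0 : ∃ z0 ∈ Z, z0 ∉ Y := by
    by_contra hcon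
    push Not at hcon
    have : Z = Y := le_antisymm hcon hYZ
    rw [this] at hcard
    omega
  obtain ⟨z0, hz0Z, hz0Y⟩ := hz0
  have hz0Ω : z0 ∈ Ω := ⟨hZD hz0Z, by rw [pow_two, hmul _ hz0Z _ hz0Z]⟩
  have hYΩ : Y ≤ Ω := fun y hy => ⟨hZD (hYZ hy), Y.pow_mem hy 2⟩
  obtain ⟨U, hYU, hUΩ, hzU, hcU⟩ := hyperplane Ω Y hYΩ (fun a ha => ha.2)
    (fun a ha m hm => by
      have := hcen m (hYZ hm) a ha.1
      rw [← this]; simpa using hm) z0 hz0Ω hz0Y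
  refine ⟨U, hUΩ.trans hΩD, by omega, fun h => hzU (h hz0Z)⟩

end Cfsg.Agent.Lib.Helper82.Rud
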