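import Mathlib
import Cfsg.Agent.Lib.Helper82.Rud.Defs
import Cfsg.Agent.Lib.Helper82.Rud.UC
import Cfsg.Agent.Lib.Helper82.Rud.OR
import Cfsg.Agent.Lib.Helper82.Rud.HD
import Cfsg.Agent.Lib.Helper82.Rud.KY

set_option autoImplicit false

namespace Cfsg.Agent.Lib.Helper82.Rud

open scoped commutatorElement

theorem comm_sq_one {T : Type*} [Group T] [Finite T] {W : Subgroup T} (h : Hyp T W) (x y : T)
    (hx : x ∈ W) (hy : y ∈ W) : ⁅x, y⁆ ^ 2 = 1 := by
  have hcZ := comm_mem h x hx y hy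
  have hxy : x * y = ⁅x, y⁆ * (y * x) := by rw [commutatorElement_def]; group
  have hcx : ⁅x, y⁆ * x = x * ⁅x, y⁆ := Z3_comm h _ hcZ x hx
  have hsq : x ^ 2 * y = y * x ^ 2 := Z3_comm h (x ^ 2) (sq_mem h x hx) y hy
  generalize ⁅x, y⁆ = c at hcZ hxy hcx
  have h1 : c ^ 2 * (y * x ^ 2) = 1 * (y * x ^ 2) := calc
    c ^ 2 * (y * x ^ 2) = c * (c * (y * x)) * x := by simp only [pow_two, mul_assoc]
    _ = c * (x * y) * x := by rw [← hxy]
    _ = (c * x) * (y * x) := by simp only [mul_assoc]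
    _ = x * c * (y * x) := by rw [hcx]
    _ = x * (c * (y * x)) := by simp only [mul_assoc]
    _ = x * (x * y) := by rw [← hxy]
    _ = x ^ 2 * y := by simp only [pow_two, mul_assoc]
    _ = y * x ^ 2 := hsq
    _ = 1 * (y * x ^ 2) := (one_mul _).symm
  exact mul_right_cancel h1

theorem comm_eq {T : Type*} [Group T] [Finite T] {W : Subgroup T} (h : Hyp T W) :
    (commutator ↥W).map W.subtype = Subgroup.upperCentralSeries T 3 ∧
      ∀ z ∈ Subgroup.upperCentralSeries T 3, z ^ 2 = 1 := by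
  have hCle : (commutator ↥W).map W.subtype ≤ Subgroup.upperCentralSeries T 3 := by
    rw [Subgroup.map_le_iff_le_comap, commutator_def, Subgroup.commutator_le]
    intro x _ y _
    rw [Subgroup.mem_comap]
    have := comm_mem h x x.2 y y.2
    simpa [commutatorElement_def] using this
  have hlt : 16 < Nat.card T := lt_of_lt_of_le (by norm_num) h.ha
  have hZ3 : Nat.card ↥(Subgroup.upperCentralSeries T 3) = 2 ^ 3 := ucs_card h.hT h.hb hlt 3 (by norm_num)
  have hmemC : ∀ x ∈ W, ∀ y ∈ W, ⁅x, y⁆ ∈ (commutator ↥W).map W.subtype := by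
    intro x hx y hy
    refine ⟨⁅(⟨x, hx⟩ : ↥W), ⟨y, hy⟩⁆, ?_, ?_⟩
    · rw [SetLike.mem_coe, commutator_def]
      exact Subgroup.commutator_mem_commutator (Subgroup.mem_top _) (Subgroup.mem_top _)
    · simp [commutatorElement_def]
  have hEq : (commutator ↥W).map W.subtype = Subgroup.upperCentralSeries T 3 := by
    by_contra hne
    set C := (commutator ↥W).map W.subtype with hC
    set Z := Subgroup.upperCentralSeries T 3 with hZ
    have : Fact (Nat.Prime 2) := ⟨Nat.prime_two⟩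
    obtain ⟨n, hn, hcard⟩ := (Nat.dvd_prime_pow Nat.prime_two).mp
      (hZ3 ▸ Subgroup.card_subgroup_dvd_card (C.subgroupOf Z))
    have hn2 : n ≤ 2 := by
      by_contra hc
      have hn3 : n = 3 := by omega
      have htop : C.subgroupOf Z = ⊤ := Subgroup.eq_top_of_card_eq _ (by rw [hcard, hn3, hZ3])
      rw [Subgroup.subgroupOf_eq_top] at htop
      exact hne (le_antisymm hCle htop)
    obtain ⟨K, hK, hHK⟩ := Sylow.exists_subgroup_card_pow_prime_le 2 (m := 2)
      (by rw [hZ3]; norm_num) (C.subgroupOf Z) hcard hn2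
    have hMcard : Nat.card ↥(K.map Z.subtype) = 4 := by
      rw [Subgroup.card_map_of_injective Z.subtype_injective, hK]; norm_num
    have hCM : C ≤ K.map Z.subtype := by
      intro c hc
      exact ⟨⟨c, hCle hc⟩, hHK (Subgroup.mem_subgroupOf.mpr hc), rfl⟩
    obtain ⟨U, hUW, hUc, hUZ⟩ := key W Z (K.map Z.subtype) (Subgroup.map_subtype_le K) (Z3_le h)
      (by rw [hZ3, hMcard]; norm_num) (Z3_comm h) (sq_mem h) (fun x hx y hy => hCM (hmemC x hx y hy))
    exact hUZ (hd' h U hUW (by omega))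
  refine ⟨hEq, ?_⟩
  let E : Subgroup T :=
    { carrier := {z | z ∈ Subgroup.upperCentralSeries T 3 ∧ z ^ 2 = 1}
      mul_mem' := by
        rintro a b ⟨ha, ha2⟩ ⟨hb, hb2⟩
        refine ⟨mul_mem ha hb, ?_⟩
        have hab : Commute a b := Z3_comm h a ha b (Z3_le h hb)
        rw [hab.mul_pow, ha2, hb2, one_mul]
      one_mem' := ⟨one_mem _, one_pow _⟩
      inv_mem' := by
        rintro a ⟨ha, ha2⟩
        exact ⟨inv_mem ha, by rw [inv_pow, ha2, inv_one]⟩ }
  have hCE : (commutator ↥W).map W.subtype ≤ E := by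
    rw [Subgroup.map_le_iff_le_comap, commutator_def, Subgroup.commutator_le]
    intro x _ y _
    rw [Subgroup.mem_comap]
    have h1 := comm_mem h x x.2 y y.2
    have h2 := comm_sq_one h x y x.2 y.2
    have h3 : W.subtype ⁅x, y⁆ = ⁅(x : T), (y : T)⁆ := by simp [commutatorElement_def]
    rw [h3]
    exact ⟨h1, h2⟩
  intro z hz
  rw [← hEq] at hz
  exact (hCE hz).2

end Cfsg.Agent.Lib.Helper82.Rud
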