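import Mathlib
import Cfsg.Agent.Lib.Helper82.Rud.Defs
import Cfsg.Agent.Lib.Helper82.Rud.UC
import Cfsg.Agent.Lib.Helper82.Rud.OR
import Cfsg.Agent.Lib.Helper82.Rud.HD
import Cfsg.Agent.Lib.Helper82.Rud.CM

set_option autoImplicit false

namespace Cfsg.Agent.Lib.Helper82.Rud

open scoped commutatorElement

theorem qdata {T : Type*} [Group T] [Finite T] {W : Subgroup T} (h : Hyp T W) : ∃ (q : (↥W ⧸ frattini ↥W) → ZMod 2) (β : (↥W ⧸ frattini ↥W) → (↥W ⧸ frattini ↥W) → ZMod 2),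
    (∀ w : ↥W, q (w : ↥W ⧸ frattini ↥W) = 0 ↔ (w : T) ^ 2 ∈ Subgroup.upperCentralSeries T 2) ∧
    (∀ w w' : ↥W, β (w : ↥W ⧸ frattini ↥W) (w' : ↥W ⧸ frattini ↥W) = 0 ↔
      ⁅(w : T), (w' : T)⁆ ∈ Subgroup.upperCentralSeries T 2) ∧
    (∀ v w, q (v * w) = q v + q w + β v w) ∧
    (∀ v w w', β v (w * w') = β v w + β v w') := by
  classical
  have hlt : 16 < Nat.card T := lt_of_lt_of_le (by norm_num) h.ha
  have hc2 : Nat.card ↥(Subgroup.upperCentralSeries T 2) = 2 ^ 2 := ucs_card h.hT h.hb hlt 2 (by norm_num)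
  have hc3 : Nat.card ↥(Subgroup.upperCentralSeries T 3) = 2 ^ 3 := ucs_card h.hT h.hb hlt 3 (by norm_num)
  have h23 : Subgroup.upperCentralSeries T 2 ≤ Subgroup.upperCentralSeries T 3 :=
    Subgroup.upperCentralSeries_mono T (by norm_num)
  have hfr := (orders h).2.2.2.2.2
  set Z2 := Subgroup.upperCentralSeries T 2 with hZ2
  set Z3 := Subgroup.upperCentralSeries T 3 with hZ3
  have hrel : Z2.relIndex Z3 = 2 := by
    have := Subgroup.relIndex_mul_relIndex (H := ⊥) (K := Z2) (L := Z3) bot_le h23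
    rw [Subgroup.relIndex_bot_left, Subgroup.relIndex_bot_left, hc2, hc3] at this
    omega
  have hmul : ∀ x ∈ Z3, ∀ y ∈ Z3, (x * y ∈ Z2 ↔ (x ∈ Z2 ↔ y ∈ Z2)) := by
    intro x hx y hy
    have := Subgroup.mul_mem_iff_of_index_two (H := Z2.subgroupOf Z3) hrel (a := ⟨x, hx⟩) (b := ⟨y, hy⟩)
    simpa [Subgroup.mem_subgroupOf] using this
  let χ : T → ZMod 2 := fun z => if z ∈ Z2 then 0 else 1
  have hχ0 : ∀ z, χ z = 0 ↔ z ∈ Z2 := by
    intro z
    by_cases hz : z ∈ Z2 <;> simp [χ, hz]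
  have hχmul : ∀ x ∈ Z3, ∀ y ∈ Z3, χ (x * y) = χ x + χ y := by
    intro x hx y hy
    have := hmul x hx y hy
    by_cases h1 : x ∈ Z2 <;> by_cases h2 : y ∈ Z2 <;> simp [χ, h1, h2, this] <;> decide
  have hχconj : ∀ g z : T, χ (g * z * g⁻¹) = χ z := by
    intro g z
    have : g * z * g⁻¹ ∈ Z2 ↔ z ∈ Z2 := by
      constructor
      · intro hz
        have := (inferInstance : Z2.Normal).conj_mem _ hz g⁻¹
        simpa [mul_assoc] using this
      · intro hz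
        exact (inferInstance : Z2.Normal).conj_mem _ hz g
    simp [χ, this]
  have hχinv : ∀ z : T, χ z⁻¹ = χ z := by
    intro z
    simp [χ]
  -- the quadratic map
  let q : (↥W ⧸ frattini ↥W) → ZMod 2 := fun v => χ ((v.out : T) ^ 2)
  have hq0 : ∀ w : ↥W, q (w : ↥W ⧸ frattini ↥W) = χ ((w : T) ^ 2) := by
    intro w
    have h1 : ((w : ↥W ⧸ frattini ↥W).out : ↥W ⧸ frattini ↥W) = w := QuotientGroup.out_eq' _
    set o := (w : ↥W ⧸ frattini ↥W).out with ho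
    have h2 : o⁻¹ * w ∈ frattini ↥W := QuotientGroup.eq.mp h1
    have h3 : ((o⁻¹ * w : ↥W) : T) ∈ Z3 := by
      rw [← hfr]
      exact ⟨_, h2, rfl⟩
    have h4 : (w : T) = (o : T) * ((o⁻¹ * w : ↥W) : T) := by simp
    have h5 : Commute (o : T) ((o⁻¹ * w : ↥W) : T) := (Z3_comm h _ h3 _ o.2).symm
    change χ ((o : T) ^ 2) = _
    rw [h4, h5.mul_pow, (comm_eq h).2 _ h3, mul_one]
  have hsq : ∀ x y : ↥W, χ (((x * y : ↥W) : T) ^ 2) = χ ((x : T) ^ 2) + χ ((y : T) ^ 2) + χ ⁅(x : T), (y : T)⁆ := by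
    intro x y
    have e1 : ((x * y : ↥W) : T) ^ 2 = (x : T) ^ 2 * ((x : T)⁻¹ * ⁅(y : T), (x : T)⁆ * ((x : T)⁻¹)⁻¹) * (y : T) ^ 2 := by
      rw [commutatorElement_def]
      simp only [Subgroup.coe_mul, pow_two]
      group
    have m1 : (x : T) ^ 2 ∈ Z3 := sq_mem h _ x.2
    have m2 : (y : T) ^ 2 ∈ Z3 := sq_mem h _ y.2
    have m3 : ⁅(y : T), (x : T)⁆ ∈ Z3 := comm_mem h _ y.2 _ x.2
    have m4 : (x : T)⁻¹ * ⁅(y : T), (x : T)⁆ * ((x : T)⁻¹)⁻¹ ∈ Z3 :=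
      (inferInstance : Z3.Normal).conj_mem _ m3 _
    rw [e1, hχmul _ (Z3.mul_mem m1 m4) _ m2, hχmul _ m1 _ m4, hχconj, ← commutatorElement_inv, hχinv]
    ring
  let β : (↥W ⧸ frattini ↥W) → (↥W ⧸ frattini ↥W) → ZMod 2 := fun v w => q (v * w) - q v - q w
  have hβ0 : ∀ x y : ↥W, β (x : ↥W ⧸ frattini ↥W) (y : ↥W ⧸ frattini ↥W) = χ ⁅(x : T), (y : T)⁆ := by
    intro x y
    change q ((x : ↥W ⧸ frattini ↥W) * (y : ↥W ⧸ frattini ↥W)) - q x - q y = _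
    rw [← QuotientGroup.mk_mul, hq0, hq0, hq0, hsq]
    ring
  refine ⟨q, β, ?_, ?_, ?_, ?_⟩
  · intro w
    rw [hq0, hχ0]
  · intro w w'
    rw [hβ0, hχ0]
  · intro v w
    change _ = q v + q w + (q (v * w) - q v - q w)
    ring
  · intro v w w'
    induction v using QuotientGroup.induction_on with
    | H x =>
    induction w using QuotientGroup.induction_on with
    | H y =>
    induction w' using QuotientGroup.induction_on with
    | H y' =>
      rw [← QuotientGroup.mk_mul, hβ0, hβ0, hβ0]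
      have e1 : ⁅(x : T), ((y * y' : ↥W) : T)⁆ = ⁅(x : T), (y : T)⁆ * ((y : T) * ⁅(x : T), (y' : T)⁆ * (y : T)⁻¹) := by
        simp only [commutatorElement_def, Subgroup.coe_mul]
        group
      have m1 : ⁅(x : T), (y : T)⁆ ∈ Z3 := comm_mem h _ x.2 _ y.2
      have m2 : ⁅(x : T), (y' : T)⁆ ∈ Z3 := comm_mem h _ x.2 _ y'.2
      rw [e1, hχmul _ m1 _ ((inferInstance : Z3.Normal).conj_mem _ m2 _), hχconj]

end Cfsg.Agent.Lib.Helper82.Rud
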