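import Mathlib
import Cfsg.Agent.Lib.Helper82.Rud.Defs
import Cfsg.Agent.Lib.Helper82.Rud.UC
import Cfsg.Agent.Lib.Helper82.Rud.OR
import Cfsg.Agent.Lib.Helper82.Rud.MB
import Cfsg.Agent.Lib.Helper82.Rud.BA
import Cfsg.Agent.Lib.Helper82.Rud.HD

set_option autoImplicit false

namespace Cfsg.Agent.Lib.Helper82.Rud

open scoped commutatorElement

theorem Z4_le {T : Type*} [Group T] [Finite T] {W : Subgroup T} (h : Hyp T W) : Subgroup.upperCentralSeries T 4 ≤ W := by
  have hWn := wnormal h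
  obtain ⟨hT14, hidx, hΦ8, hA, hW11, hmap⟩ := orders h
  have hmb := mb (act W) h.hT (quot_comm h.hT W) (quot_sq h.hT W) W
  have hall : Nat.card {a : ↥W ⧸ frattini ↥W // ∀ k ∈ W, act W k a = a}
      = Nat.card (↥W ⧸ frattini ↥W) := by
    apply Nat.card_congr
    apply Equiv.subtypeUnivEquiv
    intro a k hk
    rw [act_triv h.hT W k hk]
    rfl
  rw [hall, hA, hidx] at hmb
  have hfix2 : 1 < Nat.card {a : ↥W ⧸ frattini ↥W // ∀ d : T, act W d a = a} := by
    by_contra hle
    push Not at hle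
    have := Nat.pow_le_pow_left hle 8
    omega
  have hnt : Nontrivial {a : ↥W ⧸ frattini ↥W // ∀ d : T, act W d a = a} :=
    Finite.one_lt_card_iff_nontrivial.1 hfix2
  obtain ⟨⟨a, ha⟩, hne⟩ := exists_ne
    (⟨1, fun d => map_one _⟩ : {a : ↥W ⧸ frattini ↥W // ∀ d : T, act W d a = a})
  have ha1 : a ≠ 1 := fun h1 => hne (Subtype.ext h1)
  obtain ⟨w, rfl⟩ := QuotientGroup.mk_surjective a
  have hwΦ : w ∉ frattini ↥W := fun hw => ha1 ((QuotientGroup.eq_one_iff w).2 hw)
  have hmem3 : ∀ x : ↥W, x ∈ frattini ↥W ↔ (x : T) ∈ Subgroup.upperCentralSeries T 3 := by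
    intro x
    rw [← hmap, Subgroup.mem_map]
    constructor
    · intro hx
      exact ⟨x, hx, rfl⟩
    · rintro ⟨x', hx', he⟩
      have : x' = x := Subtype.ext he
      exact this ▸ hx'
  have hw3 : (w : T) ∉ Subgroup.upperCentralSeries T 3 := fun hw => hwΦ ((hmem3 w).2 hw)
  have hw4 : (w : T) ∈ Subgroup.upperCentralSeries T 4 := by
    rw [show (4 : ℕ) = 3 + 1 from rfl, Subgroup.mem_upperCentralSeries_succ_iff]
    intro y
    have h1 := ha y
    rw [act_mk] at h1
    have h2 : (MulAut.conjNormal y w : ↥W) * w⁻¹ ∈ frattini ↥W := by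
      rw [← QuotientGroup.eq_one_iff, QuotientGroup.mk_mul, h1, ← QuotientGroup.mk_mul,
        mul_inv_cancel]
      rfl
    have h3 := (hmem3 _).1 h2
    have h4 := (Subgroup.upperCentralSeries T 3).inv_mem h3
    have h5 : (((MulAut.conjNormal y w : ↥W) * w⁻¹ : ↥W) : T)⁻¹ = (w : T) * y * (w : T)⁻¹ * y⁻¹ := by
      simp [MulAut.conjNormal_apply, mul_assoc]
    rw [h5] at h4
    exact h4
  have hle34 : Subgroup.upperCentralSeries T 3 ≤ Subgroup.upperCentralSeries T 4 :=
    Subgroup.upperCentralSeries_mono T (by norm_num)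
  have hc3 := ucs_card h.hT h.hb (by omega) 3 (by norm_num)
  have hidx2 : ((Subgroup.upperCentralSeries T 3).subgroupOf
      (Subgroup.upperCentralSeries T 4)).index = 2 := by
    have h1 := Subgroup.card_mul_index ((Subgroup.upperCentralSeries T 3).subgroupOf
      (Subgroup.upperCentralSeries T 4))
    rw [Nat.card_congr (Subgroup.subgroupOfEquivOfLe hle34).toEquiv, hc3, h.hb] at h1
    omega
  intro x hx
  by_cases hx3 : x ∈ Subgroup.upperCentralSeries T 3
  · exact Z3_le h hx3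
  · have h1 := Subgroup.mul_mem_iff_of_index_two hidx2
      (a := (⟨x, hx⟩ : ↥(Subgroup.upperCentralSeries T 4))) (b := ⟨(w : T), hw4⟩)
    have h2 : x * (w : T) ∈ Subgroup.upperCentralSeries T 3 := by
      have := h1.2 ⟨fun hh => absurd hh hx3, fun hh => absurd hh hw3⟩
      exact this
    have h3 : x = x * (w : T) * (w : T)⁻¹ := by group
    rw [h3]
    exact W.mul_mem (Z3_le h h2) (W.inv_mem w.2)

end Cfsg.Agent.Lib.Helper82.Rud
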