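import Mathlib
import Cfsg.Agent.Lib.Helper82.Rud.Defs
import Cfsg.Agent.Lib.Helper82.Rud.UC
import Cfsg.Agent.Lib.Helper82.Rud.OR
import Cfsg.Agent.Lib.Helper82.Rud.HD
import Cfsg.Agent.Lib.Helper82.Rud.CM
import Cfsg.Agent.Lib.Helper82.Rud.Z4

set_option autoImplicit false

namespace Cfsg.Agent.Lib.Helper82.Rud

open scoped commutatorElement

/-- two elements outside a subgroup of index two differ by an element of it -/
theorem C3_idx2 {T : Type*} [Group T] [Finite T] (A B : Subgroup T) (hAB : A ≤ B)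
    (hc : Nat.card B = 2 * Nat.card A) {x y : T} (hx : x ∈ B) (hxA : x ∉ A) (hy : y ∈ B)
    (hyA : y ∉ A) : x⁻¹ * y ∈ A := by
  have hidx : (A.subgroupOf B).index = 2 := by
    have h1 := Subgroup.index_mul_card (A.subgroupOf B)
    have h2 : Nat.card (A.subgroupOf B) = Nat.card A :=
      Nat.card_congr (Subgroup.subgroupOfEquivOfLe hAB).toEquiv
    rw [h2, hc] at h1
    have hpos : 0 < Nat.card A := Nat.card_pos
    exact Nat.eq_of_mul_eq_mul_right hpos h1
  have h3 := Subgroup.mul_mem_iff_of_index_two hidx (a := (⟨x, hx⟩ : B)⁻¹) (b := ⟨y, hy⟩)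
  have h4 : ((⟨x, hx⟩ : B)⁻¹ * ⟨y, hy⟩) ∈ A.subgroupOf B := by
    rw [h3, inv_mem_iff]
    constructor
    · intro h; exact absurd (Subgroup.mem_subgroupOf.1 h) hxA
    · intro h; exact absurd (Subgroup.mem_subgroupOf.1 h) hyA
  exact Subgroup.mem_subgroupOf.1 h4

theorem C3_id1 {T : Type*} [Group T] (t w : T) :
    t * (t * w * t⁻¹) * t⁻¹ = ⁅t ^ 2, w⁆ * w := by
  rw [commutatorElement_def, pow_two]; group

theorem C3_id2 {T : Type*} [Group T] (t w : T) :
    t * ⁅w, t * w * t⁻¹⁆ * t⁻¹ = ⁅t * w * t⁻¹, t * (t * w * t⁻¹) * t⁻¹⁆ := by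
  simp only [commutatorElement_def]; group

theorem sq_conj {T : Type*} [Group T] [Finite T] {W : Subgroup T} (h : Hyp T W) (t w : T) (hw : w ∈ W) :
    (t * w * t⁻¹) ^ 2 ∈ Subgroup.upperCentralSeries T 2 ↔ w ^ 2 ∈ Subgroup.upperCentralSeries T 2 := by
  have hn : (Subgroup.upperCentralSeries T 2).Normal := inferInstance
  rw [conj_pow]
  constructor
  · intro h1
    have h2 := hn.conj_mem _ h1 t⁻¹
    have h3 : t⁻¹ * (t * w ^ 2 * t⁻¹) * t⁻¹⁻¹ = w ^ 2 := by group
    rwa [h3] at h2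
  · intro h1
    exact hn.conj_mem _ h1 t

theorem comm_conj {T : Type*} [Group T] [Finite T] {W : Subgroup T} (h : Hyp T W) (t : T) (ht2 : ∀ z ∈ Subgroup.upperCentralSeries T 2, t * z = z * t)
    (htW : t ∉ W) (hsq : t ^ 2 ∈ W) (w : T) (hw : w ∈ W) :
    ⁅w, t * w * t⁻¹⁆ ∈ Subgroup.upperCentralSeries T 2 := by
  have hWn : W.Normal := by
    rw [h.hW]; infer_instance
  have hcard := ucs_card h.hT h.hb (lt_of_lt_of_le (by norm_num) h.ha)
  have hmono : Monotone (Subgroup.upperCentralSeries T) := Subgroup.upperCentralSeries_mono T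
  have h23 : Subgroup.upperCentralSeries T 2 ≤ Subgroup.upperCentralSeries T 3 := hmono (by norm_num)
  set w' := t * w * t⁻¹ with hw'def
  have hw' : w' ∈ W := hWn.conj_mem w hw t
  set c := ⁅w, w'⁆ with hcdef
  have hc3 : c ∈ Subgroup.upperCentralSeries T 3 := comm_mem h w hw w' hw'
  have hc2 : c ^ 2 = 1 := (comm_eq h).2 c hc3
  have hcinv : c⁻¹ = c := by
    rw [inv_eq_iff_mul_eq_one, ← pow_two]; exact hc2
  set z := ⁅t ^ 2, w⁆ with hzdef
  have hz3 : z ∈ Subgroup.upperCentralSeries T 3 := comm_mem h _ hsq w hw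
  have h1 : t * w' * t⁻¹ = z * w := C3_id1 t w
  have hzw' : z * w' = w' * z := Z3_comm h z hz3 w' hw'
  have hzw : z * w = w * z := Z3_comm h z hz3 w hw
  have h2 : t * c * t⁻¹ = ⁅w', z * w⁆ := by
    rw [← h1]; exact C3_id2 t w
  have h3 : ⁅w', z * w⁆ = c⁻¹ := by
    rw [hcdef, commutatorElement_inv, commutatorElement_def, commutatorElement_def]
    calc w' * (z * w) * w'⁻¹ * (z * w)⁻¹ = (w' * z) * w * w'⁻¹ * w⁻¹ * z⁻¹ := by group
      _ = (z * w') * w * w'⁻¹ * w⁻¹ * z⁻¹ := by rw [hzw']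
      _ = z * (w' * w * w'⁻¹ * w⁻¹) * z⁻¹ := by group
      _ = w' * w * w'⁻¹ * w⁻¹ := by
          have h4 : w' * w * w'⁻¹ * w⁻¹ ∈ W :=
            W.mul_mem (W.mul_mem (W.mul_mem hw' hw) (W.inv_mem hw')) (W.inv_mem hw)
          rw [Z3_comm h z hz3 _ h4, mul_assoc, mul_inv_cancel, mul_one]
  have htc : t * c = c * t := by
    rw [h3, hcinv] at h2
    exact mul_inv_eq_iff_eq_mul.1 h2
  by_contra hcn
  apply htW
  rw [h.hW, Subgroup.mem_centralizer_iff]
  intro y hy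
  have hy3 : y ∈ Subgroup.upperCentralSeries T 3 := hy
  by_cases hy2 : y ∈ Subgroup.upperCentralSeries T 2
  · exact (ht2 y hy2).symm
  · have h5 := C3_idx2 _ _ h23 (by rw [hcard 3 (by norm_num), hcard 2 (by norm_num)]; norm_num)
      hc3 hcn hy3 hy2
    obtain ⟨v, hv, rfl⟩ : ∃ v ∈ Subgroup.upperCentralSeries T 2, y = c * v :=
      ⟨c⁻¹ * y, h5, by group⟩
    rw [mul_assoc, ← ht2 v hv, ← mul_assoc, ← htc, mul_assoc]

theorem u_sq {T : Type*} [Group T] [Finite T] {W : Subgroup T} (h : Hyp T W) (u : T) (hu : u ∈ Subgroup.upperCentralSeries T 4) :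
    u ^ 2 ∈ Subgroup.upperCentralSeries T 2 := by
  have hmono : Monotone (Subgroup.upperCentralSeries T) := Subgroup.upperCentralSeries_mono T
  have h12 : Subgroup.upperCentralSeries T 1 ≤ Subgroup.upperCentralSeries T 2 := hmono (by norm_num)
  apply h12
  rw [Subgroup.upperCentralSeries_one, Subgroup.mem_center_iff]
  intro t
  have huW : u ∈ W := Z4_le h hu
  have h1 := (Subgroup.mem_upperCentralSeries_succ_iff (n := 3) (x := u)).1 hu t
  set z := u * t * u⁻¹ * t⁻¹ with hzdef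
  have hz2 : z ^ 2 = 1 := (comm_eq h).2 z h1
  have hzu : z * u = u * z := Z3_comm h z h1 u huW
  have hzinv : z⁻¹ = z := by
    rw [inv_eq_iff_mul_eq_one, ← pow_two]; exact hz2
  have h2 : t * u * t⁻¹ = z * u := by
    rw [← hzinv, hzdef]; group
  have h3 : t * u ^ 2 * t⁻¹ = u ^ 2 := by
    rw [← conj_pow, h2, pow_two, pow_two]
    calc z * u * (z * u) = z * (u * z) * u := by group
      _ = z * (z * u) * u := by rw [hzu]
      _ = z ^ 2 * (u * u) := by rw [pow_two]; group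
      _ = u * u := by rw [hz2, one_mul]
  calc t * u ^ 2 = (t * u ^ 2 * t⁻¹) * t := by group
    _ = u ^ 2 * t := by rw [h3]

end Cfsg.Agent.Lib.Helper82.Rud
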