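import Mathlib
import Cfsg.Agent.Lib.Helper82.Rud.Defs
import Cfsg.Agent.Lib.Helper82.Rud.UC
import Cfsg.Agent.Lib.Helper82.Rud.OR

set_option autoImplicit false

namespace Cfsg.Agent.Lib.Helper82.Rud

open scoped commutatorElement

theorem coords {T : Type*} [Group T] [Finite T] {W : Subgroup T} (h : Hyp T W) : ∃ e1 e2 e3 : T,
    e1 ∈ Subgroup.upperCentralSeries T 1 ∧ e1 ≠ 1 ∧
    e2 ∈ Subgroup.upperCentralSeries T 2 ∧ e2 ∉ Subgroup.upperCentralSeries T 1 ∧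
    e3 ∈ Subgroup.upperCentralSeries T 3 ∧ e3 ∉ Subgroup.upperCentralSeries T 2 ∧
    (∀ t : T, t * e2 = e2 * t → t * e3 = e3 * t → t ∈ W) ∧
    (∀ x ∈ Subgroup.upperCentralSeries T 1, ∀ y ∈ Subgroup.upperCentralSeries T 2,
      ∃ t : T, t * e2 * t⁻¹ = e2 * x ∧ t * e3 * t⁻¹ = e3 * y) := by
  obtain ⟨e1, h1, h1'⟩ := IX_exists h 0 (by norm_num)
  obtain ⟨e2, h2, h2'⟩ := IX_exists h 1 (by norm_num)
  obtain ⟨e3, h3, h3'⟩ := IX_exists h 2 (by norm_num)
  refine ⟨e1, e2, e3, h1, ?_, h2, h2', h3, h3', IX_cent h h2 h2' h3 h3', ?_⟩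
  · rintro rfl
    exact h1' (Subgroup.one_mem _)
  · intro x hx y hy
    have hbij : Function.Bijective (IX_quot h h2 h2' h3 h3') := by
      rw [Nat.bijective_iff_injective_and_card]
      refine ⟨IX_quot_injective h h2 h2' h3 h3', ?_⟩
      rw [IX_card_prod h]
      exact (orders h).2.1
    obtain ⟨q, hq⟩ := hbij.2 (⟨x, hx⟩, ⟨y, hy⟩)
    induction q using QuotientGroup.induction_on with
    | H t =>
      have hq' : IX_map h2 h3 t = (⟨x, hx⟩, ⟨y, hy⟩) := hq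
      unfold IX_map at hq'
      rw [Prod.mk.injEq, Subtype.mk.injEq, Subtype.mk.injEq] at hq'
      refine ⟨t, ?_, ?_⟩
      · rw [← hq'.1]
        group
      · rw [← hq'.2]
        group

end Cfsg.Agent.Lib.Helper82.Rud
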