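import Mathlib
import Cfsg.Agent.Lib.Helper82.Rud.Defs
import Cfsg.Agent.Lib.Helper82.Rud.UC
import Cfsg.Agent.Lib.Helper82.Rud.CO
import Cfsg.Agent.Lib.Helper82.Rud.CM
import Cfsg.Agent.Lib.Helper82.Rud.HD

set_option autoImplicit false

namespace Cfsg.Agent.Lib.Helper82.Rud

open scoped commutatorElement

/-- two elements outside a subgroup of index two differ by an element of it -/
theorem C4_idx2 {T : Type*} [Group T] [Finite T] (A B : Subgroup T) (hAB : A ≤ B)
    (hc : Nat.card B = 2 * Nat.card A) {x y : T} (hx : x ∈ B) (hxA : x ∉ A) (hy : y ∈ B)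
    (hyA : y ∉ A) : x⁻¹ * y ∈ A := by
  have hidx : (A.subgroupOf B).index = 2 := by
    have h1 := Subgroup.index_mul_card (A.subgroupOf B)
    have h2 : Nat.card (A.subgroupOf B) = Nat.card A :=
      Nat.card_congr (Subgroup.subgroupOfEquivOfLe hAB).toEquiv
    rw [h2, hc] at h1
    have hpos : 0 < Nat.card A := Nat.card_pos
    exact Nat.eq_of_mul_eq_mul_right hpos h1
  have h3 := Subgroup.mul_mem_iff_of_index_two hidx (a := (⟨x, hx⟩ : B)⁻¹) (b := ⟨y, hy⟩)
  have h4 : ((⟨x, hx⟩ : B)⁻¹ * ⟨y, hy⟩) ∈ A.subgroupOf B := by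
    rw [h3, inv_mem_iff]
    constructor
    · intro h; exact absurd (Subgroup.mem_subgroupOf.1 h) hxA
    · intro h; exact absurd (Subgroup.mem_subgroupOf.1 h) hyA
  exact Subgroup.mem_subgroupOf.1 h4

theorem tatb {T : Type*} [Group T] [Finite T] {W : Subgroup T} (h : Hyp T W) : ∃ ta tb : T,
    (∀ z ∈ Subgroup.upperCentralSeries T 2, ta * z = z * ta) ∧
    (∀ z ∈ Subgroup.upperCentralSeries T 2, tb * z = z * tb) ∧
    ta ∉ W ∧ tb ∉ W ∧ ta * tb ∉ W ∧ ta ^ 2 ∈ W ∧ tb ^ 2 ∈ W ∧ (ta * tb) ^ 2 ∈ W ∧ ⁅ta, tb⁆ ∈ W := by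
  obtain ⟨e1, e2, e3, c1, c2, c3, c4, c5, c6, c7, c8⟩ := coords h
  have hcard := ucs_card h.hT h.hb (lt_of_lt_of_le (by norm_num) h.ha)
  have hmono : Monotone (Subgroup.upperCentralSeries T) := Subgroup.upperCentralSeries_mono T
  have h12 : Subgroup.upperCentralSeries T 1 ≤ Subgroup.upperCentralSeries T 2 := hmono (by norm_num)
  have h23 : Subgroup.upperCentralSeries T 2 ≤ Subgroup.upperCentralSeries T 3 := hmono (by norm_num)
  have hsq := (comm_eq h).2
  have e1sq : e1 * e1 = 1 := by rw [← pow_two]; exact hsq e1 (h23 (h12 c1))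
  have e2sq : e2 * e2 = 1 := by rw [← pow_two]; exact hsq e2 (h23 c3)
  have hcen : ∀ z ∈ Subgroup.upperCentralSeries T 1, ∀ t : T, t * z = z * t := by
    intro z hz t
    rw [Subgroup.upperCentralSeries_one] at hz
    exact Subgroup.mem_center_iff.1 hz t
  obtain ⟨ta, ha2, ha3⟩ := c8 1 (one_mem _) e2 c3
  obtain ⟨tb, hb2, hb3⟩ := c8 1 (one_mem _) e1 (h12 c1)
  rw [mul_one] at ha2 hb2
  -- conjugation automorphisms
  have conj1 : ∀ t : T, MulAut.conj t e1 = e1 := by
    intro t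
    rw [MulAut.conj_apply, hcen e1 c1 t, mul_assoc, mul_inv_cancel, mul_one]
  have a2 : MulAut.conj ta e2 = e2 := ha2
  have a3 : MulAut.conj ta e3 = e3 * e2 := ha3
  have b2 : MulAut.conj tb e2 = e2 := hb2
  have b3 : MulAut.conj tb e3 = e3 * e1 := hb3
  have e12 : e1 * e2 = e2 * e1 := (hcen e1 c1 e2).symm
  have comm_iff : ∀ t x : T, MulAut.conj t x = x ↔ t * x = x * t := by
    intro t x
    rw [MulAut.conj_apply, mul_inv_eq_iff_eq_mul]
  have cent2 : ∀ t : T, MulAut.conj t e2 = e2 →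
      ∀ z ∈ Subgroup.upperCentralSeries T 2, t * z = z * t := by
    intro t ht z hz
    by_cases hz1 : z ∈ Subgroup.upperCentralSeries T 1
    · exact hcen z hz1 t
    · have h5 := C4_idx2 _ _ h12 (by rw [hcard 2 (by norm_num), hcard 1 (by norm_num)]; norm_num)
        c3 c4 hz hz1
      obtain ⟨w, hw, rfl⟩ : ∃ w ∈ Subgroup.upperCentralSeries T 1, z = e2 * w :=
        ⟨e2⁻¹ * z, h5, by group⟩
      rw [← mul_assoc, (comm_iff t e2).1 ht, mul_assoc, hcen _ hw t, mul_assoc]
  have memW : ∀ t : T, MulAut.conj t e2 = e2 → MulAut.conj t e3 = e3 → t ∈ W := by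
    intro t h2 h3
    exact c7 t ((comm_iff t e2).1 h2) ((comm_iff t e3).1 h3)
  have notW : ∀ t : T, MulAut.conj t e3 ≠ e3 → t ∉ W := by
    intro t h3 htW
    apply h3
    rw [comm_iff]
    exact (Z3_comm h e3 c5 t htW).symm
  have ai3 : (MulAut.conj ta)⁻¹ e3 = e3 * e2 := by
    have : MulAut.conj ta (e3 * e2) = e3 := by
      rw [map_mul, a3, a2, mul_assoc, e2sq, mul_one]
    rw [← this, MulAut.inv_apply_self, this]
  have bi3 : (MulAut.conj tb)⁻¹ e3 = e3 * e1 := by
    have : MulAut.conj tb (e3 * e1) = e3 := by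
      rw [map_mul, b3, conj1, mul_assoc, e1sq, mul_one]
    rw [← this, MulAut.inv_apply_self, this]
  have ai2 : (MulAut.conj ta)⁻¹ e2 = e2 := by
    nth_rewrite 1 [← a2]
    rw [MulAut.inv_apply_self]
  have bi2 : (MulAut.conj tb)⁻¹ e2 = e2 := by
    nth_rewrite 1 [← b2]
    rw [MulAut.inv_apply_self]
  have ai1 : (MulAut.conj ta)⁻¹ e1 = e1 := by
    nth_rewrite 1 [← conj1 ta]
    rw [MulAut.inv_apply_self]
  have bi1 : (MulAut.conj tb)⁻¹ e1 = e1 := by
    nth_rewrite 1 [← conj1 tb]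
    rw [MulAut.inv_apply_self]
  have hz : e2 * e1 * (e2 * e1) = 1 := by
    calc e2 * e1 * (e2 * e1) = e2 * (e1 * e2) * e1 := by group
      _ = e2 * (e2 * e1) * e1 := by rw [e12]
      _ = (e2 * e2) * (e1 * e1) := by group
      _ = 1 := by rw [e2sq, e1sq, mul_one]
  refine ⟨ta, tb, cent2 ta a2, cent2 tb b2, ?_, ?_, ?_, ?_, ?_, ?_, ?_⟩
  · apply notW
    rw [a3]
    intro h5
    apply c4
    have : e2 = 1 := by simpa using h5
    rw [this]; exact one_mem _
  · apply notW
    rw [b3]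
    intro h5
    apply c2
    simpa using h5
  · apply notW
    rw [map_mul, MulAut.mul_apply, b3, map_mul, a3, conj1]
    intro h5
    apply c4
    have h6 : e2 * e1 = 1 := by
      rw [mul_assoc] at h5
      simpa using h5
    have : e2 = e1⁻¹ := eq_inv_of_mul_eq_one_left h6
    rw [this]; exact inv_mem c1
  · apply memW
    · rw [pow_two, map_mul, MulAut.mul_apply, a2, a2]
    · rw [pow_two, map_mul, MulAut.mul_apply, a3, map_mul, a3, a2, mul_assoc, e2sq, mul_one]
  · apply memW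
    · rw [pow_two, map_mul, MulAut.mul_apply, b2, b2]
    · rw [pow_two, map_mul, MulAut.mul_apply, b3, map_mul, b3, conj1, mul_assoc, e1sq, mul_one]
  · apply memW
    · rw [pow_two]
      simp only [map_mul, MulAut.mul_apply, a2, b2]
    · rw [pow_two]
      simp only [map_mul, MulAut.mul_apply, a2, b2, a3, b3, conj1]
      calc e3 * e2 * e1 * e2 * e1 = e3 * (e2 * e1 * (e2 * e1)) := by group
        _ = e3 := by rw [hz, mul_one]
  · apply memW
    · rw [commutatorElement_def]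
      simp only [map_mul, map_inv, MulAut.mul_apply, a2, b2, ai2, bi2]
    · rw [commutatorElement_def]
      simp only [map_mul, map_inv, MulAut.mul_apply, a2, b2, ai2, bi2, a3, b3, ai3, bi3, conj1, ai1,
        bi1]
      calc e3 * e2 * e1 * e2 * e1 = e3 * (e2 * e1 * (e2 * e1)) := by group
        _ = e3 := by rw [hz, mul_one]

end Cfsg.Agent.Lib.Helper82.Rud
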