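import Mathlib
import Cfsg.Agent.Lib.Helper82.Rud.Defs
import Cfsg.Agent.Lib.Helper82.Rud.MB
import Cfsg.Agent.Lib.Helper82.Rud.FT
import Cfsg.Agent.Lib.Helper82.Rud.BA
import Cfsg.Agent.Lib.Helper82.Rud.OR

set_option autoImplicit false

namespace Cfsg.Agent.Lib.Helper82.Rud

open scoped commutatorElement

theorem fix_le {T : Type*} [Group T] [Finite T] {W : Subgroup T} (h : Hyp T W) [W.Normal] (K : Subgroup T) :
    Nat.card {a : ↥W ⧸ frattini ↥W // ∀ k ∈ K, act W k a = a} ≤ 2 ^ K.index :=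
  (mb (act W) h.hT (quot_comm h.hT W) (quot_sq h.hT W) K).trans (Nat.pow_le_pow_left (fix_top h) _)

/-- the stabiliser of a point of `W / Φ(W)`. -/
def c5stab {T : Type*} [Group T] (W : Subgroup T) [W.Normal] (v : ↥W ⧸ frattini ↥W) : Subgroup T where
  carrier := {k | act W k v = v}
  mul_mem' := by
    intro a b ha hb
    show act W (a * b) v = v
    rw [map_mul, MulAut.mul_apply, (show act W b v = v from hb), (show act W a v = v from ha)]
  one_mem' := by
    show act W 1 v = v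
    rw [map_one, MulAut.one_apply]
  inv_mem' := by
    intro a ha
    show act W a⁻¹ v = v
    have ha' : act W a v = v := ha
    conv_lhs => rw [← ha']
    rw [map_inv, MulAut.inv_apply_self]

theorem c5_mem_sup_zpowers {T : Type*} [Group T] {W : Subgroup T} [W.Normal] {t x : T} (ht : t ^ 2 ∈ W)
    (hx : x ∈ W ⊔ Subgroup.zpowers t) : x ∈ W ∨ x * t⁻¹ ∈ W := by
  rw [Subgroup.mem_sup_of_normal_left] at hx
  obtain ⟨w, hw, z, hz, rfl⟩ := hx
  obtain ⟨n, rfl⟩ := Subgroup.mem_zpowers_iff.mp hz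
  rcases Int.even_or_odd' n with ⟨k, rfl | rfl⟩
  · left
    rw [zpow_mul]
    exact mul_mem hw (zpow_mem (by simpa using ht) k)
  · right
    rw [zpow_add, zpow_mul, zpow_one]
    have : w * ((t ^ (2 : ℤ)) ^ k * t) * t⁻¹ = w * (t ^ (2 : ℤ)) ^ k := by group
    rw [this]
    exact mul_mem hw (zpow_mem (by simpa using ht) k)

theorem fixcards {T : Type*} [Group T] [Finite T] {W : Subgroup T} (h : Hyp T W) [W.Normal] (ta tb : T)
    (ha2 : ∀ z ∈ Subgroup.upperCentralSeries T 2, ta * z = z * ta)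
    (hb2 : ∀ z ∈ Subgroup.upperCentralSeries T 2, tb * z = z * tb)
    (haW : ta ∉ W) (hbW : tb ∉ W) (habW : ta * tb ∉ W)
    (hasq : ta ^ 2 ∈ W) (hbsq : tb ^ 2 ∈ W) (habsq : (ta * tb) ^ 2 ∈ W) (hcomm : ⁅ta, tb⁆ ∈ W) :
    Nat.card {v : ↥W ⧸ frattini ↥W // act W ta v = v} ≤ 16 ∧
      Nat.card {v : ↥W ⧸ frattini ↥W // act W ta v = v ∧ act W tb v = v} ≤ 4 := by
  have hWi : W.index = 8 := (orders h).2.1
  have hWst : ∀ v, W ≤ c5stab W v := by
    intro v w hw
    show act W w v = v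
    rw [act_triv h.hT W w hw, MulAut.one_apply]
  set Ka := W ⊔ Subgroup.zpowers ta with hKa
  set Kab := Ka ⊔ Subgroup.zpowers tb with hKab
  have hta : ta ∈ Ka := (le_sup_right : _ ≤ Ka) (Subgroup.mem_zpowers ta)
  have htb : tb ∈ Kab := (le_sup_right : _ ≤ Kab) (Subgroup.mem_zpowers tb)
  have hWKa : W ≤ Ka := le_sup_left
  have hKaKab : Ka ≤ Kab := le_sup_left
  have h1 := Subgroup.relIndex_mul_index hWKa
  have h2 := Subgroup.relIndex_mul_index hKaKab
  have r1 : W.relIndex Ka ≠ 1 := fun hc => haW (Subgroup.relIndex_eq_one.mp hc hta)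
  have htbKa : tb ∉ Ka := by
    intro hc
    rcases c5_mem_sup_zpowers hasq hc with h3 | h3
    · exact hbW h3
    · apply habW
      have h4 : ta * tb = ta * (tb * ta⁻¹) * ta⁻¹ * ta ^ 2 := by group
      rw [h4]
      exact mul_mem (‹W.Normal›.conj_mem _ h3 ta) hasq
  have r2 : Ka.relIndex Kab ≠ 1 := fun hc => htbKa (Subgroup.relIndex_eq_one.mp hc htb)
  have r10 : W.relIndex Ka ≠ 0 := by
    intro hc; rw [hc, zero_mul, hWi] at h1; omega
  have hKai0 : Ka.index ≠ 0 := by
    intro hc; rw [hc, mul_zero, hWi] at h1; omega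
  have r20 : Ka.relIndex Kab ≠ 0 := by
    intro hc; rw [hc, zero_mul] at h2; exact hKai0 h2.symm
  have hKai : Ka.index ≤ 4 := by
    have : 2 * Ka.index ≤ W.relIndex Ka * Ka.index := Nat.mul_le_mul_right _ (by omega)
    omega
  have hKabi : Kab.index ≤ 2 := by
    have : 2 * Kab.index ≤ Ka.relIndex Kab * Kab.index := Nat.mul_le_mul_right _ (by omega)
    omega
  constructor
  · have e : {v : ↥W ⧸ frattini ↥W // act W ta v = v} ≃ {v : ↥W ⧸ frattini ↥W // ∀ k ∈ Ka, act W k v = v} := by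
      refine Equiv.subtypeEquivRight (fun v => ⟨fun hv k hk => ?_, fun hv => hv ta hta⟩)
      have : Ka ≤ c5stab W v := sup_le (hWst v) (by rw [Subgroup.zpowers_le]; exact hv)
      exact this hk
    rw [Nat.card_congr e]
    exact (fix_le h Ka).trans ((Nat.pow_le_pow_right (by norm_num) hKai).trans (by norm_num))
  · have e : {v : ↥W ⧸ frattini ↥W // act W ta v = v ∧ act W tb v = v} ≃
        {v : ↥W ⧸ frattini ↥W // ∀ k ∈ Kab, act W k v = v} := by
      refine Equiv.subtypeEquivRight (fun v => ⟨fun hv k hk => ?_, fun hv => ⟨hv ta (hKaKab hta), hv tb htb⟩⟩)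
      have : Kab ≤ c5stab W v := sup_le (sup_le (hWst v) (by rw [Subgroup.zpowers_le]; exact hv.1))
        (by rw [Subgroup.zpowers_le]; exact hv.2)
      exact this hk
    rw [Nat.card_congr e]
    exact (fix_le h Kab).trans ((Nat.pow_le_pow_right (by norm_num) hKabi).trans (by norm_num))

end Cfsg.Agent.Lib.Helper82.Rud
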