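import Mathlib
import Cfsg.Agent.Lib.Helper82.Rud.Defs
import Cfsg.Agent.Lib.Helper2.Rud.Base

set_option autoImplicit false

namespace Cfsg.Agent.Lib.Helper82.Rud

open scoped commutatorElement
open Cfsg.Agent.Lib.Helper2.Rud

/-- Rank estimates for the norm map `N = (1+a)(1+b)`. -/
theorem q1 {V : Type*} [AddCommGroup V] [Module (ZMod 2) V] [Finite V] (hV : Nat.card V = 2 ^ 8) (a b : V →ₗ[ZMod 2] V)
    (ha : ∀ v, a (a v) = v) (hb : ∀ v, b (b v) = v) (hab : ∀ v, a (b v) = b (a v))
    (hCa : Nat.card {v : V // a v = v} ≤ 16) (hCab : Nat.card {v : V // a v = v ∧ b v = v} ≤ 4)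
    (u : V) :
    ∃ H : Submodule (ZMod 2) V, 64 ≤ Nat.card ↥H ∧
      (∀ v, v ∈ H ↔ (v + a v + b v + a (b v) = 0 ∨ v + a v + b v + a (b v) = u)) ∧
      ∃ w, w ∉ H := by
  have hself : ∀ x : V, x + x = 0 := fun x => ZModModule.add_self x
  have heq : ∀ x y : V, x + y = 0 → y = x := by
    intro x y h
    calc y = (x + x) + y := by rw [hself, zero_add]
      _ = x + (x + y) := by rw [add_assoc]
      _ = x := by rw [h, add_zero]
  let A1 : V →ₗ[ZMod 2] V := LinearMap.id + a
  let B1 : V →ₗ[ZMod 2] V := LinearMap.id + b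
  let N : V →ₗ[ZMod 2] V := B1 ∘ₗ A1
  have hA1 : ∀ v, A1 v = v + a v := fun v => rfl
  have hB1 : ∀ v, B1 v = v + b v := fun v => rfl
  have hN : ∀ v, N v = v + a v + b v + a (b v) := by
    intro v
    change (v + a v) + b (v + a v) = _
    rw [map_add, hab, add_assoc, add_assoc, add_assoc]
  have haA : ∀ v, a (A1 v) = A1 v := by
    intro v
    rw [hA1, map_add, ha, add_comm]
  have haN : ∀ v, a (N v) = N v := by
    intro v
    change a (A1 v + b (A1 v)) = A1 v + b (A1 v)
    rw [map_add, hab, haA]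
  have hbN : ∀ v, b (N v) = N v := by
    intro v
    change b (A1 v + b (A1 v)) = A1 v + b (A1 v)
    rw [map_add, hb, add_comm]
  -- range A1 is large
  have c1 := card_eq_ker_mul_range A1
  have c2 : Nat.card (LinearMap.ker A1) ≤ 16 := by
    refine le_trans ?_ hCa
    apply Nat.card_le_card_of_injective
      (fun x : LinearMap.ker A1 => (⟨x.1, heq _ _ x.2⟩ : {v : V // a v = v}))
    intro x y hxy
    exact Subtype.ext (congrArg (fun z : {v : V // a v = v} => z.1) hxy)
  have c3 : 16 ≤ Nat.card (LinearMap.range A1) := by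
    by_contra hlt
    push Not at hlt
    have : Nat.card (LinearMap.ker A1) * Nat.card (LinearMap.range A1) ≤ 16 * 15 :=
      Nat.mul_le_mul c2 (by omega)
    omega
  let g : LinearMap.range A1 →ₗ[ZMod 2] V := B1.domRestrict (LinearMap.range A1)
  have c4 := card_eq_ker_mul_range g
  have c5 : Nat.card (LinearMap.ker g) ≤ 4 := by
    refine le_trans ?_ hCab
    apply Nat.card_le_card_of_injective
      (fun x : LinearMap.ker g => (⟨x.1.1, by
        obtain ⟨v, hv⟩ := x.1.2
        rw [← hv]; exact haA v, heq _ _ x.2⟩ : {v : V // a v = v ∧ b v = v}))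
    intro x y hxy
    apply Subtype.ext
    apply Subtype.ext
    exact congrArg (fun z : {v : V // a v = v ∧ b v = v} => z.1) hxy
  have c6 : 4 ≤ Nat.card (LinearMap.range g) := by
    by_contra hlt
    push Not at hlt
    have : Nat.card (LinearMap.ker g) * Nat.card (LinearMap.range g) ≤ 4 * 3 :=
      Nat.mul_le_mul c5 (by omega)
    omega
  have c7 : LinearMap.range g ≤ LinearMap.range N := by
    rintro _ ⟨⟨_, v, rfl⟩, rfl⟩
    exact ⟨v, rfl⟩
  have c8 : 4 ≤ Nat.card (LinearMap.range N) := le_trans c6 (card_le_of_le c7)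
  have c9 : Nat.card (LinearMap.range N) ≤ 4 := by
    refine le_trans ?_ hCab
    apply Nat.card_le_card_of_injective
      (fun x : LinearMap.range N => (⟨x.1, by
        obtain ⟨v, hv⟩ := x.2
        rw [← hv]; exact ⟨haN v, hbN v⟩⟩ : {v : V // a v = v ∧ b v = v}))
    intro x y hxy
    exact Subtype.ext (congrArg (fun z : {v : V // a v = v ∧ b v = v} => z.1) hxy)
  have c10 := card_eq_ker_mul_range N
  have c11 : 64 ≤ Nat.card (LinearMap.ker N) := by
    by_contra hlt
    push Not at hlt
    have : Nat.card (LinearMap.ker N) * Nat.card (LinearMap.range N) ≤ 63 * 4 :=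
      Nat.mul_le_mul (by omega) c9
    omega
  refine ⟨(Submodule.span (ZMod 2) {u}).comap N, ?_, ?_, ?_⟩
  · refine le_trans c11 (card_le_of_le ?_)
    intro x hx
    rw [Submodule.mem_comap, LinearMap.mem_ker.1 hx]
    exact Submodule.zero_mem _
  · intro v
    rw [Submodule.mem_comap, mem_span_singleton_iff, hN]
  · by_contra hcon
    push Not at hcon
    have : LinearMap.range N ≤ Submodule.span (ZMod 2) {u} := by
      rintro _ ⟨v, rfl⟩
      exact hcon v
    have h1 := card_le_of_le this
    have h2 := card_span_singleton_le u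
    omega

end Cfsg.Agent.Lib.Helper82.Rud
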