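import Mathlib
import Cfsg.Agent.Lib.Helper82.Rud.Defs
import Cfsg.Agent.Lib.Helper2.Rud.Base

set_option autoImplicit false

namespace Cfsg.Agent.Lib.Helper82.Rud

open scoped commutatorElement
open Cfsg.Agent.Lib.Helper2.Rud

/-- Case 1: a singular vector `w` with `N w ∉ {0,u}` gives a totally singular 5-space. -/
theorem q2 {V : Type*} [AddCommGroup V] [Module (ZMod 2) V] [Finite V] (a b : V →ₗ[ZMod 2] V)
    (ha : ∀ v, a (a v) = v) (hb : ∀ v, b (b v) = v) (hab : ∀ v, a (b v) = b (a v))
    (q : V → ZMod 2) (β : V → V → ZMod 2)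
    (hq : ∀ v w, q (v + w) = q v + q w + β v w)
    (hβ : ∀ v w w', β v (w + w') = β v w + β v w')
    (hqa : ∀ v, q (a v) = q v) (hqb : ∀ v, q (b v) = q v)
    (hβa : ∀ v, β v (a v) = 0) (hβb : ∀ v, β v (b v) = 0) (hβab : ∀ v, β v (a (b v)) = 0)
    (u : V) (hu0 : u ≠ 0) (hua : a u = u) (hub : b u = u) (huβ : ∀ v, β u v = 0) (hqu : q u = 0)
    (w : V) (hw0 : w + a w + b w + a (b w) ≠ 0) (hwu : w + a w + b w + a (b w) ≠ u)
    (hqw : q w = 0) :
    ∃ I : Submodule (ZMod 2) V, 32 ≤ Nat.card ↥I ∧ ∀ v ∈ I, q v = 0 := by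
  have hself : ∀ x : V, x + x = 0 := fun x => ZModModule.add_self x
  have hsym : ∀ v v', β v v' = β v' v := by
    intro v v'
    have h1 := hq v v'
    have h2 := hq v' v
    rw [add_comm v' v, h1] at h2
    have h3 : q v + q v' + β v v' = q v + q v' + β v' v := by rw [h2]; ring
    exact add_left_cancel h3
  have hβ0 : ∀ v, β v 0 = 0 := by
    intro v
    have := hβ v 0 0
    rw [add_zero] at this
    exact left_eq_add.1 this
  have hq0 : q 0 = 0 := by
    have := hq 0 0
    rw [add_zero, hβ0, add_zero] at this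
    exact left_eq_add.1 this
  have hβvv : ∀ v, β v v = 0 := by
    intro v
    have := hq v v
    rw [hself, hq0, CharTwo.add_self_eq_zero, zero_add] at this
    exact this.symm
  let x : Fin 5 → V := ![w, a w, b w, a (b w), u]
  -- the table
  have t01 : β w (a w) = 0 := hβa w
  have t02 : β w (b w) = 0 := hβb w
  have t03 : β w (a (b w)) = 0 := hβab w
  have t12 : β (a w) (b w) = 0 := by
    have := hβab (a w)
    rwa [← hab, ha] at this
  have t13 : β (a w) (a (b w)) = 0 := by
    have := hβb (a w)
    rwa [← hab] at this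
  have t23 : β (b w) (a (b w)) = 0 := hβa (b w)
  have table : ∀ i j, β (x i) (x j) = 0 := by
    intro i j
    fin_cases i <;> fin_cases j <;>
      simp only [x, Fin.zero_eta, Fin.mk_one, Fin.reduceFinMk, Matrix.cons_val_zero,
        Matrix.cons_val_one, Matrix.cons_val] <;>
      first
        | exact hβvv _
        | exact huβ _
        | (rw [hsym]; exact huβ _)
        | assumption
        | (rw [hsym]; assumption)
  have hqx : ∀ i, q (x i) = 0 := by
    intro i
    fin_cases i <;>
      simp only [x, Fin.zero_eta, Fin.mk_one, Fin.reduceFinMk, Matrix.cons_val_zero,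
        Matrix.cons_val_one, Matrix.cons_val, hqa, hqb, hqw, hqu]
  have orth1 : ∀ v ∈ Submodule.span (ZMod 2) (Set.range x), ∀ j, β (x j) v = 0 := by
    intro v hv j
    induction hv using Submodule.span_induction with
    | mem y hy => obtain ⟨i, rfl⟩ := hy; exact table j i
    | zero => exact hβ0 _
    | add y z _ _ hy hz => rw [hβ, hy, hz, add_zero]
    | smul c y _ hy =>
      rcases zmod2_cases c with rfl | rfl
      · rw [zero_smul]; exact hβ0 _
      · rw [one_smul]; exact hy
  have orth2 : ∀ v ∈ Submodule.span (ZMod 2) (Set.range x),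
      ∀ v' ∈ Submodule.span (ZMod 2) (Set.range x), β v v' = 0 := by
    intro v hv v' hv'
    induction hv' using Submodule.span_induction with
    | mem y hy => obtain ⟨i, rfl⟩ := hy; rw [hsym]; exact orth1 v hv i
    | zero => exact hβ0 _
    | add y z _ _ hy hz => rw [hβ, hy, hz, add_zero]
    | smul c y _ hy =>
      rcases zmod2_cases c with rfl | rfl
      · rw [zero_smul]; exact hβ0 _
      · rw [one_smul]; exact hy
  have key : ∀ c0 c1 c2 c3 c4 : ZMod 2,
      c0 • w + c1 • a w + c2 • b w + c3 • a (b w) + c4 • u = 0 →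
      c0 = 0 ∧ c1 = 0 ∧ c2 = 0 ∧ c3 = 0 ∧ c4 = 0 := by
    intro c0 c1 c2 c3 c4 hz
    have hbaw : b (a w) = a (b w) := (hab w).symm
    have hbabw : b (a (b w)) = a w := by rw [← hab, hb]
    have haz := congrArg a hz
    simp only [map_add, map_smul, ha, hua, map_zero] at haz
    have hbz := congrArg b hz
    simp only [map_add, map_smul, hb, hub, map_zero, hbaw, hbabw] at hbz
    have habz := congrArg a hbz
    simp only [map_add, map_smul, ha, hua, map_zero] at habz
    have h2u : (c4 + c4) • u = 0 := by rw [CharTwo.add_self_eq_zero, zero_smul]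
    have s1 : (c0 + c1 + c2 + c3) • (w + a w + b w + a (b w)) = 0 := by
      linear_combination (norm := module) hz + haz + hbz + habz - h2u - h2u
    have e1 : c0 + c1 + c2 + c3 = 0 := (smul_eq_zero.1 s1).resolve_right hw0
    have he : c2 + c3 = c0 + c1 :=
      (by decide : ∀ c0 c1 c2 c3 : ZMod 2, c0 + c1 + c2 + c3 = 0 → c2 + c3 = c0 + c1) _ _ _ _ e1
    have he' : c1 + c3 = c0 + c2 :=
      (by decide : ∀ c0 c1 c2 c3 : ZMod 2, c0 + c1 + c2 + c3 = 0 → c1 + c3 = c0 + c2) _ _ _ _ e1
    have E1 : (c0 + c1) • (w + a w) + (c2 + c3) • (b w + a (b w)) = 0 := by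
      linear_combination (norm := module) hz + haz - h2u
    rw [he, ← smul_add, ← add_assoc] at E1
    have e2 : c0 + c1 = 0 := (smul_eq_zero.1 E1).resolve_right hw0
    have E2 : (c0 + c2) • (w + b w) + (c1 + c3) • (a w + a (b w)) = 0 := by
      linear_combination (norm := module) hz + hbz - h2u
    rw [he', ← smul_add] at E2
    have hw0' : w + b w + (a w + a (b w)) ≠ 0 := by
      intro h
      apply hw0
      rw [← h]; abel
    have e3 : c0 + c2 = 0 := (smul_eq_zero.1 E2).resolve_right hw0'
    have f1 : c1 = c0 := (by decide : ∀ c0 c1 : ZMod 2, c0 + c1 = 0 → c1 = c0) _ _ e2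
    have f2 : c2 = c0 := (by decide : ∀ c0 c1 : ZMod 2, c0 + c1 = 0 → c1 = c0) _ _ e3
    have f3 : c3 = c0 :=
      (by decide : ∀ c0 c1 c2 c3 : ZMod 2, c0 + c1 + c2 + c3 = 0 → c0 + c1 = 0 → c0 + c2 = 0 →
        c3 = c0) _ _ _ _ e1 e2 e3
    rw [f1, f2, f3] at hz
    have hc0 : c0 = 0 := by
      rcases zmod2_cases c0 with h | h
      · exact h
      · exfalso
        rw [h] at hz
        simp only [one_smul] at hz
        rcases zmod2_cases c4 with h4 | h4
        · rw [h4, zero_smul, add_zero] at hz
          exact hw0 hz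
        · rw [h4, one_smul] at hz
          apply hwu
          calc w + a w + b w + a (b w) = (w + a w + b w + a (b w) + u) + u := by
                rw [add_assoc _ u u, hself, add_zero]
            _ = u := by rw [hz, zero_add]
    rw [hc0] at hz f1 f2 f3
    simp only [zero_smul, zero_add] at hz
    exact ⟨hc0, f1, f2, f3, (smul_eq_zero.1 hz).resolve_right hu0⟩
  have hli : LinearIndependent (ZMod 2) x := by
    rw [Fintype.linearIndependent_iff]
    intro c hc
    rw [Fin.sum_univ_five] at hc
    simp only [x, Matrix.cons_val_zero, Matrix.cons_val_one, Matrix.cons_val] at hc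
    obtain ⟨h0, h1, h2, h3, h4⟩ := key _ _ _ _ _ hc
    intro i
    fin_cases i
    · exact h0
    · exact h1
    · exact h2
    · exact h3
    · exact h4
  refine ⟨Submodule.span (ZMod 2) (Set.range x), ?_, ?_⟩
  · have h1 := finrank_span_eq_card hli
    have h2 := Module.natCard_eq_pow_finrank (K := ZMod 2)
      (V := Submodule.span (ZMod 2) (Set.range x))
    rw [h1, Nat.card_zmod, Fintype.card_fin] at h2
    rw [h2]; norm_num
  · intro v hv
    induction hv using Submodule.span_induction with
    | mem y hy => obtain ⟨i, rfl⟩ := hy; exact hqx i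
    | zero => exact hq0
    | add y z hy' hz' hy hz => rw [hq, hy, hz, orth2 y hy' z hz', add_zero, add_zero]
    | smul c y _ hy =>
      rcases zmod2_cases c with rfl | rfl
      · rw [zero_smul]; exact hq0
      · rw [one_smul]; exact hy

end Cfsg.Agent.Lib.Helper82.Rud
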