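import Mathlib
import Cfsg.Agent.Lib.Helper82.Rud.Defs
import Cfsg.Agent.Lib.Helper2.Rud.Base

set_option autoImplicit false

namespace Cfsg.Agent.Lib.Helper82.Rud

open scoped commutatorElement
open Cfsg.Agent.Lib.Helper2.Rud

/-- Case 2: `q` is nonzero off a proper subspace `H` of order at least 64. -/
theorem q3 {V : Type*} [AddCommGroup V] [Module (ZMod 2) V] [Finite V]
    (q : V → ZMod 2) (β : V → V → ZMod 2)
    (hq : ∀ v w, q (v + w) = q v + q w + β v w)
    (hβ : ∀ v w w', β v (w + w') = β v w + β v w')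
    (H : Submodule (ZMod 2) V) (hH : 64 ≤ Nat.card ↥H) (w0 : V) (hw0 : w0 ∉ H)
    (hoff : ∀ w, w ∉ H → q w ≠ 0) :
    ∃ I : Submodule (ZMod 2) V, 32 ≤ Nat.card ↥I ∧ ∀ v ∈ I, q v = 0 := by
  let f : V →ₗ[ZMod 2] ZMod 2 := (AddMonoidHom.mk' (β w0) (hβ w0)).toZModLinearMap 2
  have hf : ∀ v, f v = β w0 v := fun v => rfl
  refine ⟨H ⊓ LinearMap.ker f, ?_, ?_⟩
  · let g : H →ₗ[ZMod 2] ZMod 2 := f.domRestrict H
    have h1 := card_eq_ker_mul_range g
    have h2 : Nat.card (LinearMap.range g) ≤ 2 := by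
      have := Nat.card_le_card_of_injective (Subtype.val : LinearMap.range g → ZMod 2)
        Subtype.val_injective
      rwa [Nat.card_zmod] at this
    have h3 : Nat.card (LinearMap.ker g) ≤ Nat.card ↥(H ⊓ LinearMap.ker f) := by
      apply Nat.card_le_card_of_injective
        (fun x : LinearMap.ker g => (⟨x.1.1, x.1.2, x.2⟩ : ↥(H ⊓ LinearMap.ker f)))
      intro x y hxy
      apply Subtype.ext
      apply Subtype.ext
      exact congrArg (fun z : ↥(H ⊓ LinearMap.ker f) => z.1) hxy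
    have h4 : Nat.card (LinearMap.ker g) * Nat.card (LinearMap.range g)
        ≤ Nat.card ↥(H ⊓ LinearMap.ker f) * 2 := Nat.mul_le_mul h3 h2
    omega
  · rintro x ⟨hxH, hxf⟩
    have hx0 : β w0 x = 0 := hxf
    have hnot : w0 + x ∉ H := by
      intro h
      apply hw0
      have := H.sub_mem h hxH
      rwa [add_sub_cancel_right] at this
    have e1 := zmod2_eq_one (hoff _ hnot)
    have e2 := zmod2_eq_one (hoff _ hw0)
    rw [hq, e2, hx0, add_zero] at e1
    exact add_eq_left.1 e1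

end Cfsg.Agent.Lib.Helper82.Rud
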