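import Mathlib
import Cfsg.Agent.Lib.Helper82.Rud.Defs
import Cfsg.Agent.Lib.Helper82.Rud.Q1
import Cfsg.Agent.Lib.Helper82.Rud.Q2
import Cfsg.Agent.Lib.Helper82.Rud.Q3

set_option autoImplicit false

namespace Cfsg.Agent.Lib.Helper82.Rud

open scoped commutatorElement

/-- Lemma Q, module version. -/
theorem lemmaQ_mod {V : Type*} [AddCommGroup V] [Module (ZMod 2) V] [Finite V] (hV : Nat.card V = 2 ^ 8) (a b : V →ₗ[ZMod 2] V)
    (ha : ∀ v, a (a v) = v) (hb : ∀ v, b (b v) = v) (hab : ∀ v, a (b v) = b (a v))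
    (hCa : Nat.card {v : V // a v = v} ≤ 16) (hCab : Nat.card {v : V // a v = v ∧ b v = v} ≤ 4)
    (q : V → ZMod 2) (β : V → V → ZMod 2)
    (hq : ∀ v w, q (v + w) = q v + q w + β v w)
    (hβ : ∀ v w w', β v (w + w') = β v w + β v w')
    (hqa : ∀ v, q (a v) = q v) (hqb : ∀ v, q (b v) = q v)
    (hβa : ∀ v, β v (a v) = 0) (hβb : ∀ v, β v (b v) = 0) (hβab : ∀ v, β v (a (b v)) = 0)
    (u : V) (hu0 : u ≠ 0) (hua : a u = u) (hub : b u = u) (huβ : ∀ v, β u v = 0) (hqu : q u = 0) :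
    ∃ I : Submodule (ZMod 2) V, 32 ≤ Nat.card ↥I ∧ ∀ v ∈ I, q v = 0 := by
  obtain ⟨H, hH, hmem, w0, hw0⟩ := q1 hV a b ha hb hab hCa hCab u
  by_cases hex : ∃ w, w ∉ H ∧ q w = 0
  · obtain ⟨w, hw, hqw⟩ := hex
    rw [hmem] at hw
    push_neg at hw
    exact q2 a b ha hb hab q β hq hβ hqa hqb hβa hβb hβab u hu0 hua hub huβ hqu w hw.1 hw.2 hqw
  · push_neg at hex
    exact q3 q β hq hβ H hH w0 hw0 hex

end Cfsg.Agent.Lib.Helper82.Rud
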