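import Mathlib
import Cfsg.Agent.Lib.Helper82.Rud.Defs
import Cfsg.Agent.Lib.Helper82.Rud.Q4

set_option autoImplicit false

namespace Cfsg.Agent.Lib.Helper82.Rud

open scoped commutatorElement

/-- Lemma Q, group version. -/
theorem lemmaQ {A : Type*} [Group A] [Finite A] (hc : ∀ x y : A, x * y = y * x)
    (h2 : ∀ x : A, x ^ 2 = 1) (hA : Nat.card A = 2 ^ 8) (a b : MulAut A)
    (ha : a * a = 1) (hb : b * b = 1) (hab : a * b = b * a)
    (hCa : Nat.card {v : A // a v = v} ≤ 16) (hCab : Nat.card {v : A // a v = v ∧ b v = v} ≤ 4)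
    (q : A → ZMod 2) (β : A → A → ZMod 2)
    (hq : ∀ v w, q (v * w) = q v + q w + β v w)
    (hβ : ∀ v w w', β v (w * w') = β v w + β v w')
    (hqa : ∀ v, q (a v) = q v) (hqb : ∀ v, q (b v) = q v)
    (hβa : ∀ v, β v (a v) = 0) (hβb : ∀ v, β v (b v) = 0) (hβab : ∀ v, β v (a (b v)) = 0)
    (u : A) (hu1 : u ≠ 1) (hua : a u = u) (hub : b u = u) (huβ : ∀ v, β u v = 0) (hqu : q u = 0) :
    ∃ I : Subgroup A, 32 ≤ Nat.card ↥I ∧ ∀ v ∈ I, q v = 0 := by
  letI : CommGroup A := { (inferInstance : Group A) with mul_comm := hc }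
  letI : Module (ZMod 2) (Additive A) := AddCommGroup.zmodModule (n := 2) (fun x => by
    change Additive.ofMul (x.toMul ^ 2) = 0
    rw [h2]; rfl)
  let a' : Additive A →ₗ[ZMod 2] Additive A :=
    (MonoidHom.toAdditive a.toMonoidHom).toZModLinearMap 2
  let b' : Additive A →ₗ[ZMod 2] Additive A :=
    (MonoidHom.toAdditive b.toMonoidHom).toZModLinearMap 2
  have ha' : ∀ v : A, a (a v) = v := fun v => by
    have := congrArg (fun f : MulAut A => f v) ha
    simpa using this
  have hb' : ∀ v : A, b (b v) = v := fun v => by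
    have := congrArg (fun f : MulAut A => f v) hb
    simpa using this
  have hab' : ∀ v : A, a (b v) = b (a v) := fun v => by
    have := congrArg (fun f : MulAut A => f v) hab
    simpa using this
  obtain ⟨I, hI, hIq⟩ := lemmaQ_mod (V := Additive A) hA a' b'
    (fun v => ha' v.toMul) (fun v => hb' v.toMul) (fun v => hab' v.toMul) hCa hCab
    (fun v => q v.toMul) (fun v w => β v.toMul w.toMul)
    (fun v w => hq v.toMul w.toMul) (fun v w w' => hβ v.toMul w.toMul w'.toMul)
    (fun v => hqa v.toMul) (fun v => hqb v.toMul) (fun v => hβa v.toMul) (fun v => hβb v.toMul)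
    (fun v => hβab v.toMul) (Additive.ofMul u) hu1 hua hub (fun v => huβ v.toMul) hqu
  refine ⟨AddSubgroup.toSubgroup' I.toAddSubgroup, hI, fun v hv => hIq (Additive.ofMul v) hv⟩

end Cfsg.Agent.Lib.Helper82.Rud
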