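import Mathlib
import Cfsg.Agent.Lib.Helper82.Rud.Defs
import Cfsg.Agent.Lib.Helper82.Rud.Q0
import Cfsg.Agent.Lib.Helper82.Rud.C2
import Cfsg.Agent.Lib.Helper82.Rud.C3
import Cfsg.Agent.Lib.Helper82.Rud.C4
import Cfsg.Agent.Lib.Helper82.Rud.C5
import Cfsg.Agent.Lib.Helper82.Rud.BA
import Cfsg.Agent.Lib.Helper82.Rud.OR
import Cfsg.Agent.Lib.Helper82.Rud.HD
import Cfsg.Agent.Lib.Helper82.Rud.Z4
import Cfsg.Agent.Lib.Helper82.Rud.UC

set_option autoImplicit false

namespace Cfsg.Agent.Lib.Helper82.Rud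

open scoped commutatorElement

theorem exists_singular {T : Type*} [Group T] [Finite T] {W : Subgroup T} (h : Hyp T W) [W.Normal]
    (hu : ∀ u ∈ Subgroup.upperCentralSeries T 4, ∀ w ∈ W, u * w = w * u) :
    ∃ I : Subgroup (↥W ⧸ frattini ↥W), 32 ≤ Nat.card ↥I ∧
      ∀ w : ↥W, (w : ↥W ⧸ frattini ↥W) ∈ I → (w : T) ^ 2 ∈ Subgroup.upperCentralSeries T 2 := by
  obtain ⟨ta, tb, ha2, hb2, haW, hbW, habW, hasq, hbsq, habsq, hcomm⟩ := tatb h
  obtain ⟨q, β, hq0, hβ0, hq, hβ⟩ := qdata h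
  obtain ⟨hCa, hCab⟩ := fixcards h ta tb ha2 hb2 haW hbW habW hasq hbsq habsq hcomm
  have hz2 : ∀ x y : ZMod 2, (x = 0 ↔ y = 0) → x = y := by decide
  have hlt : 16 < Nat.card T := lt_of_lt_of_le (by norm_num) h.ha
  have hc3 : Nat.card ↥(Subgroup.upperCentralSeries T 3) = 2 ^ 3 := ucs_card h.hT h.hb hlt 3 (by norm_num)
  have hfr := (orders h).2.2.2.2.2
  have hmemfr : ∀ x : ↥W, (x : T) ∈ Subgroup.upperCentralSeries T 3 ↔ x ∈ frattini ↥W := by
    intro x
    rw [← hfr]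
    constructor
    · rintro ⟨y, hy, hyx⟩
      have : y = x := Subtype.ext hyx
      exact this ▸ hy
    · intro hx
      exact ⟨x, hx, rfl⟩
  obtain ⟨u0, hu4, hu3⟩ : ∃ u0 ∈ Subgroup.upperCentralSeries T 4,
      u0 ∉ Subgroup.upperCentralSeries T 3 := by
    by_contra hcon
    push Not at hcon
    have := Subgroup.card_le_of_le (show Subgroup.upperCentralSeries T 4 ≤ Subgroup.upperCentralSeries T 3 from hcon)
    rw [h.hb, hc3] at this
    omega
  have hu0W : u0 ∈ W := Z4_le h hu4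
  have hfixu : ∀ t : T, act W t ((⟨u0, hu0W⟩ : ↥W) : ↥W ⧸ frattini ↥W) = ((⟨u0, hu0W⟩ : ↥W) : ↥W ⧸ frattini ↥W) := by
    intro t
    rw [act_mk, QuotientGroup.eq, ← hmemfr]
    have h1 : u0⁻¹ ∈ Subgroup.upperCentralSeries T (3 + 1) := Subgroup.inv_mem _ hu4
    rw [Subgroup.mem_upperCentralSeries_succ_iff] at h1
    have h2 := (inferInstance : (Subgroup.upperCentralSeries T 3).Normal).conj_mem _ (h1 t⁻¹) t
    have h3 : (((MulAut.conjNormal t (⟨u0, hu0W⟩ : ↥W))⁻¹ * (⟨u0, hu0W⟩ : ↥W) : ↥W) : T)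
        = t * (u0⁻¹ * t⁻¹ * u0⁻¹⁻¹ * t⁻¹⁻¹) * t⁻¹ := by
      simp only [Subgroup.coe_mul, Subgroup.coe_inv, MulAut.conjNormal_apply]
      group
    rw [h3]
    exact h2
  have hab2 : ∀ z ∈ Subgroup.upperCentralSeries T 2, (ta * tb) * z = z * (ta * tb) := by
    intro z hz
    rw [mul_assoc, hb2 z hz, ← mul_assoc, ha2 z hz, mul_assoc]
  have hqt : ∀ (t : T) (v : ↥W ⧸ frattini ↥W), q (act W t v) = q v := by
    intro t v
    induction v using QuotientGroup.induction_on with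
    | H w =>
      rw [act_mk]
      apply hz2
      rw [hq0, hq0, MulAut.conjNormal_apply]
      exact sq_conj h t w w.2
  have hβt : ∀ (t : T), (∀ z ∈ Subgroup.upperCentralSeries T 2, t * z = z * t) → t ∉ W → t ^ 2 ∈ W →
      ∀ (v : ↥W ⧸ frattini ↥W), β v (act W t v) = 0 := by
    intro t ht2 htW htsq v
    induction v using QuotientGroup.induction_on with
    | H w =>
      rw [act_mk, hβ0, MulAut.conjNormal_apply]
      exact comm_conj h t ht2 htW htsq w w.2
  obtain ⟨I, hI, hIq⟩ := lemmaQ (quot_comm h.hT W) (quot_sq h.hT W) (orders h).2.2.2.1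
    (act W ta) (act W tb)
    (by rw [← map_mul, ← pow_two]; exact act_triv h.hT W _ hasq)
    (by rw [← map_mul, ← pow_two]; exact act_triv h.hT W _ hbsq)
    (by
      have e : ta * tb = ⁅ta, tb⁆ * (tb * ta) := by
        rw [commutatorElement_def]; group
      rw [← map_mul, e, map_mul, act_triv h.hT W _ hcomm, one_mul, map_mul])
    hCa hCab q β hq hβ (hqt ta) (hqt tb) (hβt ta ha2 haW hasq) (hβt tb hb2 hbW hbsq)
    (by
      intro v
      have := hβt (ta * tb) hab2 habW habsq v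
      rwa [map_mul] at this)
    ((⟨u0, hu0W⟩ : ↥W) : ↥W ⧸ frattini ↥W)
    (by
      intro h1
      rw [QuotientGroup.eq_one_iff, ← hmemfr] at h1
      exact hu3 h1)
    (hfixu ta) (hfixu tb)
    (by
      intro v
      induction v using QuotientGroup.induction_on with
      | H w =>
        rw [hβ0]
        have : ⁅u0, (w : T)⁆ = 1 := by
          rw [commutatorElement_eq_one_iff_mul_comm]
          exact hu u0 hu4 w w.2
        change ⁅u0, (w : T)⁆ ∈ _
        rw [this]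
        exact Subgroup.one_mem _)
    (by
      rw [hq0]
      exact u_sq h u0 hu4)
  exact ⟨I, hI, fun w hw => (hq0 w).mp (hIq _ hw)⟩

end Cfsg.Agent.Lib.Helper82.Rud
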