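import Mathlib
import Cfsg.Agent.Lib.Helper82.Rud.Defs
import Cfsg.Agent.Lib.Helper82.Rud.C6
import Cfsg.Agent.Lib.Helper82.Rud.HP
import Cfsg.Agent.Lib.Helper82.Rud.HD
import Cfsg.Agent.Lib.Helper82.Rud.OR
import Cfsg.Agent.Lib.Helper82.Rud.UC
import Cfsg.Agent.Lib.Helper82.Rud.BA

set_option autoImplicit false

namespace Cfsg.Agent.Lib.Helper82.Rud

open scoped commutatorElement

/-- the order of the preimage of a subgroup of a quotient -/
theorem C7_card_comap {A : Type*} [Group A] [Finite A] (N : Subgroup A) [N.Normal]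
    (I : Subgroup (A ⧸ N)) :
    Nat.card ↥(I.comap (QuotientGroup.mk' N)) = Nat.card ↥I * Nat.card ↥N := by
  have h1 : (I.comap (QuotientGroup.mk' N)).index = I.index :=
    Subgroup.index_comap_of_surjective I (QuotientGroup.mk'_surjective N)
  have h2 := Subgroup.card_mul_index (I.comap (QuotientGroup.mk' N))
  have h3 := Subgroup.card_mul_index I
  have h4 := Subgroup.card_eq_card_quotient_mul_card_subgroup N
  rw [h1, h4, ← h3] at h2
  have hpos : 0 < I.index := Nat.pos_of_ne_zero (Subgroup.index_ne_zero_of_finite)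
  have h5 : Nat.card ↥(I.comap (QuotientGroup.mk' N)) * I.index =
      (Nat.card ↥I * Nat.card ↥N) * I.index := by
    rw [h2]; ring
  exact Nat.eq_of_mul_eq_mul_right hpos h5

theorem no_central {T : Type*} [Group T] [Finite T] {W : Subgroup T} (h : Hyp T W)
    (hu : ∀ u ∈ Subgroup.upperCentralSeries T 4, ∀ w ∈ W, u * w = w * u) : False := by
  have hWn : W.Normal := wnormal h
  obtain ⟨I, hI32, hIsq⟩ := exists_singular h hu
  obtain ⟨-, -, hPhi, -, hWcard, hmap⟩ := orders h
  have hcard := ucs_card h.hT h.hb (lt_of_lt_of_le (by norm_num) h.ha)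
  have hmono : Monotone (Subgroup.upperCentralSeries T) := Subgroup.upperCentralSeries_mono T
  have h23 : Subgroup.upperCentralSeries T 2 ≤ Subgroup.upperCentralSeries T 3 := hmono (by norm_num)
  have hn2 : (Subgroup.upperCentralSeries T 2).Normal := inferInstance
  set I1 : Subgroup T := (I.comap (QuotientGroup.mk' (frattini ↥W))).map W.subtype with hI1
  have hI1card : Nat.card ↥I1 = Nat.card ↥I * 8 := by
    rw [hI1, Subgroup.card_map_of_injective W.subtype_injective, C7_card_comap, hPhi]
  have hI1W : I1 ≤ W := by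
    rintro x ⟨y, -, rfl⟩
    exact y.2
  have hZ3I1 : Subgroup.upperCentralSeries T 3 ≤ I1 := by
    rw [← hmap]
    apply Subgroup.map_mono
    intro y hy
    rw [Subgroup.mem_comap]
    have : QuotientGroup.mk' (frattini ↥W) y = 1 := by
      rw [QuotientGroup.mk'_apply, QuotientGroup.eq_one_iff]; exact hy
    rw [this]; exact one_mem _
  have hsq : ∀ a ∈ I1, a ^ 2 ∈ Subgroup.upperCentralSeries T 2 := by
    rintro a ⟨y, hy, rfl⟩
    exact hIsq y hy
  obtain ⟨e3, he3, he3'⟩ : ∃ e3 ∈ Subgroup.upperCentralSeries T 3,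
      e3 ∉ Subgroup.upperCentralSeries T 2 := by
    by_contra hcon
    push Not at hcon
    have h1 : Subgroup.upperCentralSeries T 3 ≤ Subgroup.upperCentralSeries T 2 := hcon
    have h2 := Subgroup.card_le_of_le h1
    rw [hcard 3 (by norm_num), hcard 2 (by norm_num)] at h2
    norm_num at h2
  obtain ⟨U, -, hUI, he3U, hUcard⟩ := hyperplane I1 (Subgroup.upperCentralSeries T 2)
    (h23.trans hZ3I1) hsq (fun a _ m hm => hn2.conj_mem m hm a) e3 (hZ3I1 he3) he3'
  apply he3U
  refine hd' h U (hUI.trans hI1W) ?_ he3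
  rw [hWcard]
  rw [hI1card] at hUcard
  omega

end Cfsg.Agent.Lib.Helper82.Rud
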