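import Mathlib
import Cfsg.Agent.Lib.Helper82.Rud.Defs
import Cfsg.Agent.Lib.Helper82.Rud.CO
import Cfsg.Agent.Lib.Helper82.Rud.CM
import Cfsg.Agent.Lib.Helper82.Rud.HD

set_option autoImplicit false

namespace Cfsg.Agent.Lib.Helper82.Rud

open scoped commutatorElement

theorem nonab {T : Type*} [Group T] [Finite T] {W : Subgroup T} (h : Hyp T W) : ∃ s s' : T, s ^ 2 ∈ W ∧ s' ^ 2 ∈ W ∧ ⁅s, s'⁆ ∉ W := by
  obtain ⟨e1, e2, e3, he1, he1n, he2, he2n, he3, he3n, hW, hex⟩ := coords h
  have hm12 : Subgroup.upperCentralSeries T 1 ≤ Subgroup.upperCentralSeries T 2 :=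
    Subgroup.upperCentralSeries_mono T (by norm_num)
  have hm23 : Subgroup.upperCentralSeries T 2 ≤ Subgroup.upperCentralSeries T 3 :=
    Subgroup.upperCentralSeries_mono T (by norm_num)
  have hc1 : ∀ t : T, t * e1 = e1 * t := by
    rw [Subgroup.upperCentralSeries_one] at he1
    exact fun t => Subgroup.mem_center_iff.mp he1 t
  have hsq := (comm_eq h).2
  have e1sq : e1 * e1 = 1 := by rw [← pow_two]; exact hsq _ (hm23 (hm12 he1))
  have e2sq : e2 * e2 = 1 := by rw [← pow_two]; exact hsq _ (hm23 he2)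
  obtain ⟨s, hs2, hs3⟩ := hex e1 he1 1 (one_mem _)
  obtain ⟨s', hs2', hs3'⟩ := hex 1 (one_mem _) e2 he2
  have a1 : s * e2 = e2 * e1 * s := mul_inv_eq_iff_eq_mul.mp hs2
  have a2 : s * e3 = e3 * s := by
    have := mul_inv_eq_iff_eq_mul.mp hs3
    rwa [mul_one] at this
  have b1 : s' * e2 = e2 * s' := by
    have := mul_inv_eq_iff_eq_mul.mp hs2'
    rwa [mul_one] at this
  have b2 : s' * e3 = e3 * e2 * s' := mul_inv_eq_iff_eq_mul.mp hs3'
  refine ⟨s, s', hW _ ?_ ?_, hW _ ?_ ?_, ?_⟩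
  · calc s ^ 2 * e2 = s * (s * e2) := by rw [pow_two, mul_assoc]
      _ = s * (e2 * e1 * s) := by rw [a1]
      _ = (s * e2) * (e1 * s) := by simp only [mul_assoc]
      _ = e2 * e1 * s * (e1 * s) := by rw [a1]
      _ = e2 * e1 * (s * e1) * s := by simp only [mul_assoc]
      _ = e2 * e1 * (e1 * s) * s := by rw [hc1 s]
      _ = e2 * (e1 * e1) * (s * s) := by simp only [mul_assoc]
      _ = e2 * s ^ 2 := by rw [e1sq, mul_one, pow_two]
  · exact (show Commute s e3 from a2).pow_left 2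
  · exact (show Commute s' e2 from b1).pow_left 2
  · calc s' ^ 2 * e3 = s' * (s' * e3) := by rw [pow_two, mul_assoc]
      _ = s' * (e3 * e2 * s') := by rw [b2]
      _ = (s' * e3) * (e2 * s') := by simp only [mul_assoc]
      _ = e3 * e2 * s' * (e2 * s') := by rw [b2]
      _ = e3 * e2 * (s' * e2) * s' := by simp only [mul_assoc]
      _ = e3 * e2 * (e2 * s') * s' := by rw [b1]
      _ = e3 * (e2 * e2) * (s' * s') := by simp only [mul_assoc]
      _ = e3 * s' ^ 2 := by rw [e2sq, mul_one, pow_two]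
  · intro hc
    have hcs : s * s' = ⁅s, s'⁆ * (s' * s) := by rw [commutatorElement_def]; group
    have h32 : e3 * e2 ∈ Subgroup.upperCentralSeries T 3 := mul_mem he3 (hm23 he2)
    have hcc := Z3_comm h _ h32 _ hc
    generalize ⁅s, s'⁆ = c at hc hcs hcc
    have l1 : (s * s') * e3 = e3 * e2 * e1 * (s * s') := calc
      s * s' * e3 = s * (s' * e3) := mul_assoc _ _ _
      _ = s * (e3 * e2 * s') := by rw [b2]
      _ = (s * e3) * (e2 * s') := by simp only [mul_assoc]
      _ = e3 * s * (e2 * s') := by rw [a2]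
      _ = e3 * (s * e2) * s' := by simp only [mul_assoc]
      _ = e3 * (e2 * e1 * s) * s' := by rw [a1]
      _ = e3 * e2 * e1 * (s * s') := by simp only [mul_assoc]
    have l2 : (s * s') * e3 = e3 * e2 * (s * s') := calc
      s * s' * e3 = c * (s' * s) * e3 := by rw [← hcs]
      _ = c * (s' * (s * e3)) := by simp only [mul_assoc]
      _ = c * (s' * (e3 * s)) := by rw [a2]
      _ = c * ((s' * e3) * s) := by simp only [mul_assoc]
      _ = c * (e3 * e2 * s' * s) := by rw [b2]
      _ = (c * (e3 * e2)) * (s' * s) := by simp only [mul_assoc]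
      _ = (e3 * e2 * c) * (s' * s) := by rw [hcc]
      _ = e3 * e2 * (c * (s' * s)) := by simp only [mul_assoc]
      _ = e3 * e2 * (s * s') := by rw [← hcs]
    have h3 : e3 * e2 * e1 * (s * s') = e3 * e2 * (s * s') := l1.symm.trans l2
    have h4 := mul_right_cancel h3
    exact he1n (mul_left_cancel (h4.trans (mul_one _).symm))

end Cfsg.Agent.Lib.Helper82.Rud
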