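import Mathlib
import Cfsg.Agent.Lib.Helper82.Rud.Defs
import Cfsg.Prelude.Def_Transfer

set_option autoImplicit false

namespace Cfsg.Agent.Lib.Helper82.Rud

open scoped commutatorElement

/-- abstract form: a finite group with a normal Sylow 2-subgroup centralised by all elements of odd
order has a normal 2-complement -/
theorem ncomp_aux {N : Type*} [Group N] [Finite N] (P : Sylow 2 N)
    (hPn : (P : Subgroup N).Normal)
    (hcent : ∀ g : N, Odd (orderOf g) → ∀ t ∈ (P : Subgroup N), g * t = t * g) :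
    Cfsg.HasNormalPComplement 2 N := by
  have : Fact (Nat.Prime 2) := ⟨Nat.prime_two⟩
  obtain ⟨K, hK⟩ := Subgroup.exists_right_complement'_of_coprime P.card_coprime_index
  have hKcard : (P : Subgroup N).index = Nat.card ↥K := hK.symm.index_eq_card
  have hodd : ∀ k ∈ K, Odd (orderOf k) := by
    intro k hk
    have h1 : orderOf k ∣ Nat.card ↥K := by
      have := orderOf_dvd_natCard (⟨k, hk⟩ : ↥K)
      rwa [← Subgroup.orderOf_coe] at this
    rw [← hKcard] at h1
    rw [← Nat.not_even_iff_odd, even_iff_two_dvd]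
    intro h2
    exact P.not_dvd_index (h2.trans h1)
  have hcomm : ∀ k ∈ K, ∀ q ∈ (P : Subgroup N), k * q = q * k :=
    fun k hk q hq => hcent k (hodd k hk) q hq
  have hKn : K.Normal := by
    constructor
    intro k hk n
    obtain ⟨⟨⟨q, hq⟩, ⟨k0, hk0⟩⟩, hx, -⟩ := (Subgroup.isComplement_iff_existsUnique.1 hK) n
    simp only at hx
    have h1 : k0 * k * k0⁻¹ ∈ K := K.mul_mem (K.mul_mem hk0 hk) (K.inv_mem hk0)
    have h2 : n * k * n⁻¹ = k0 * k * k0⁻¹ := by
      rw [← hx]
      calc q * k0 * k * (q * k0)⁻¹ = q * (k0 * k * k0⁻¹) * q⁻¹ := by group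
        _ = (k0 * k * k0⁻¹) * q * q⁻¹ := by rw [hcomm _ h1 q hq]
        _ = k0 * k * k0⁻¹ := by group
    rw [h2]
    exact h1
  exact ⟨P, K, hKn, hK.symm⟩

/-- If every odd order element of `N_G(T)` centralises the Sylow 2-subgroup `T`, then `N_G(T)` has a
normal 2-complement. -/
theorem ncomp {G : Type*} [Group G] [Finite G] (T : Sylow 2 G)
    (hcent : ∀ g ∈ Subgroup.normalizer ((T : Subgroup G) : Set G), Odd (orderOf g) →
      ∀ t ∈ (T : Subgroup G), g * t = t * g) :
    Cfsg.HasNormalPComplement 2 ↥(Subgroup.normalizer ((T : Subgroup G) : Set G)) := by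
  have hPcoe : ((T.subtype Subgroup.le_normalizer :
        Sylow 2 ↥(Subgroup.normalizer ((T : Subgroup G) : Set G))) : Subgroup _)
      = (T : Subgroup G).subgroupOf (Subgroup.normalizer ((T : Subgroup G) : Set G)) :=
    Sylow.coe_subtype _ _
  apply ncomp_aux (T.subtype Subgroup.le_normalizer)
  · rw [hPcoe]
    exact Subgroup.normal_in_normalizer
  · intro g hg t ht
    rw [hPcoe, Subgroup.mem_subgroupOf] at ht
    apply Subtype.ext
    exact hcent g g.2 (by rwa [Subgroup.orderOf_coe]) t ht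

end Cfsg.Agent.Lib.Helper82.Rud
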