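import Mathlib
import Cfsg.Agent.Lib.Helper82.Rud.Defs
import Cfsg.Agent.Lib.Helper82.Rud.NA
import Cfsg.Agent.Lib.Helper82.Rud.D8
import Cfsg.Agent.Lib.Helper82.Rud.OR

set_option autoImplicit false

namespace Cfsg.Agent.Lib.Helper82.Rud

open scoped commutatorElement

theorem quot_d8 {T : Type*} [Group T] [Finite T] {W : Subgroup T} (h : Hyp T W) [W.Normal] : Nonempty (T ⧸ W ≃* DihedralGroup 4) := by
  obtain ⟨s, s', hs, hs', hne⟩ := nonab h
  have hcard : Nat.card (T ⧸ W) = 8 := by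
    rw [← Subgroup.index_eq_card]
    exact (orders h).2.1
  refine d8 hcard (s : T ⧸ W) (s' : T ⧸ W) ?_ ?_ ?_
  · rw [← QuotientGroup.mk_mul, ← pow_two]
    exact (QuotientGroup.eq_one_iff _).2 hs
  · rw [← QuotientGroup.mk_mul, ← pow_two]
    exact (QuotientGroup.eq_one_iff _).2 hs'
  · intro hcomm
    apply hne
    rw [← QuotientGroup.eq_one_iff, commutatorElement_def, QuotientGroup.mk_mul,
      QuotientGroup.mk_mul, QuotientGroup.mk_mul, QuotientGroup.mk_inv, QuotientGroup.mk_inv, hcomm]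
    group

end Cfsg.Agent.Lib.Helper82.Rud
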