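import Mathlib
import Cfsg.Agent.Lib.Helper82.Rud.Defs
import Cfsg.Prelude.Def_Transfer
import Cfsg.Agent.Lib.Helper82.Rud.A5
import Cfsg.Agent.Lib.Helper82.Rud.NP

set_option autoImplicit false

namespace Cfsg.Agent.Lib.Helper82.Rud

open scoped commutatorElement

theorem normal_compl {G : Type*} [Group G] [Finite G] (T : Sylow 2 G)
    (W : Subgroup ↥(T : Subgroup G)) (h : Hyp ↥(T : Subgroup G) W) :
    Cfsg.HasNormalPComplement 2 ↥(Subgroup.normalizer ((T : Subgroup G) : Set G)) := by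
  apply ncomp T
  intro g hg hodd t ht
  let α : MulAut ↥(T : Subgroup G) := Subgroup.normalizerMonoidHom (T : Subgroup G) ⟨g, hg⟩
  have hα : α ^ orderOf g = 1 := by
    have h1 : (⟨g, hg⟩ : ↥(Subgroup.normalizer ((T : Subgroup G) : Set G))) ^ orderOf g = 1 := by
      apply Subtype.ext
      simp [pow_orderOf_eq_one]
    show (Subgroup.normalizerMonoidHom (T : Subgroup G) ⟨g, hg⟩) ^ orderOf g = 1
    rw [← map_pow, h1, map_one]
  have h1 : α = 1 := aut_trivial h α (orderOf g) hodd hα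
  have h2 : ((α ⟨t, ht⟩ : ↥(T : Subgroup G)) : G) = g * t * g⁻¹ := rfl
  rw [h1, MulAut.one_apply] at h2
  calc g * t = (g * t * g⁻¹) * g := by group
    _ = t * g := by rw [← h2]

end Cfsg.Agent.Lib.Helper82.Rud
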