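import Mathlib
import Cfsg.Agent.Lib.Helper82.Rud.Defs
import Cfsg.Agent.Lib.Helper82.Rud.HP

set_option autoImplicit false

namespace Cfsg.Agent.Lib.Helper82.Rud

open scoped commutatorElement

theorem h74_card_map_conj {G : Type*} [Group G] (H : Subgroup G) (g : G) :
    Nat.card ↥(H.map (MulAut.conj g).toMonoidHom) = Nat.card ↥H :=
  Subgroup.card_map_of_injective (MulAut.conj g).injective

/-- if `W₁ ≤ S`, `W ≤ S`, `|S| = m |W|`, `|W₁| = |W|` then `|W| ≤ m |W ⊓ W₁|`. -/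
theorem h74_card_le_inf {G : Type*} [Group G] [Finite G] (S W W1 : Subgroup G) (hWS : W ≤ S)
    (hW1S : W1 ≤ S) (m : ℕ) (hS : Nat.card ↥S = m * Nat.card ↥W)
    (hc : Nat.card ↥W1 = Nat.card ↥W) : Nat.card ↥W ≤ m * Nat.card ↥(W ⊓ W1) := by
  have hWpos : 0 < Nat.card ↥W := Nat.card_pos
  have h1 : W.relIndex S = m := by
    have := h74_relIndex_mul_card hWS
    rw [hS] at this
    exact Nat.eq_of_mul_eq_mul_right hWpos this
  have hm : m ≠ 0 := by
    rintro rfl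
    have : 0 < Nat.card ↥S := Nat.card_pos
    omega
  have h2 : W.relIndex W1 ≤ m := by
    rw [← h1]
    exact Subgroup.relIndex_le_of_le_right hW1S (by rw [h1]; exact hm)
  have h3 := h74_relIndex_mul_card (inf_le_right : W ⊓ W1 ≤ W1)
  rw [Subgroup.inf_relIndex_right, hc] at h3
  rw [← h3]
  exact Nat.mul_le_mul_right _ h2

/-- Weak closure, step 1. -/
theorem wcA {G : Type*} [Group G] [Finite G] (T W Z : Subgroup G) (hWT : W ≤ T) (hZW : Z ≤ W)
    (hnorm : ∀ t ∈ T, ∀ w ∈ W, t * w * t⁻¹ ∈ W)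
    (hidx : Nat.card ↥T = 8 * Nat.card ↥W)
    (hd : ∀ U : Subgroup G, U ≤ W → Nat.card ↥W ≤ 16 * Nat.card ↥U → Z ≤ U)
    (g : G) (hg : W.map (MulAut.conj g).toMonoidHom ≤ T) :
    Z ≤ W.map (MulAut.conj g).toMonoidHom ∧ Z.map (MulAut.conj g).toMonoidHom ≤ W := by
  have h8 := h74_card_le_inf T W _ hWT hg 8 hidx (h74_card_map_conj W g)
  constructor
  · exact (hd _ inf_le_left (by omega)).trans inf_le_right
  · have hD' : (W ⊓ W.map (MulAut.conj g).toMonoidHom).map (MulAut.conj g⁻¹).toMonoidHom ≤ W := by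
      rintro x ⟨d, ⟨-, ⟨w, hw, rfl⟩⟩, rfl⟩
      simpa [mul_assoc] using hw
    have hZ := hd _ hD' (by rw [h74_card_map_conj]; omega)
    rintro x ⟨z, hz, rfl⟩
    obtain ⟨d, ⟨hdW, -⟩, hdz⟩ := hZ hz
    have : (MulAut.conj g).toMonoidHom z = d := by
      rw [← hdz]; simp [mul_assoc]
    rw [this]; exact hdW

end Cfsg.Agent.Lib.Helper82.Rud
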