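import Mathlib
import Cfsg.Agent.Lib.Helper82.Rud.Defs
import Cfsg.Agent.Lib.Helper82.Rud.HP
import Cfsg.Agent.Lib.Helper82.Rud.WA

set_option autoImplicit false

namespace Cfsg.Agent.Lib.Helper82.Rud

open scoped commutatorElement

/-- Weak closure, step 2: `T ≠ W W₁` since `T / W` is not abelian. -/
theorem wcB {G : Type*} [Group G] [Finite G] (T W Z : Subgroup G) (hWT : W ≤ T) (hZW : Z ≤ W)
    (hnorm : ∀ t ∈ T, ∀ w ∈ W, t * w * t⁻¹ ∈ W)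
    (hcomm : ∀ x ∈ W, ∀ y ∈ W, ⁅x, y⁆ ∈ Z)
    (hidx : Nat.card ↥T = 8 * Nat.card ↥W)
    (hnonab : ∃ s ∈ T, ∃ s' ∈ T, ⁅s, s'⁆ ∉ W)
    (g : G) (hg : W.map (MulAut.conj g).toMonoidHom ≤ T)
    (hZ1 : Z.map (MulAut.conj g).toMonoidHom ≤ W) :
    Nat.card ↥W ≤ 4 * Nat.card ↥(W ⊓ W.map (MulAut.conj g).toMonoidHom) := by
  classical
  obtain ⟨W1, hW1⟩ : ∃ W1 : Subgroup G, W1 = W.map (MulAut.conj g).toMonoidHom := ⟨_, rfl⟩
  rw [← hW1] at hg ⊢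
  have hcW1 : Nat.card ↥W1 = Nat.card ↥W := by rw [hW1]; exact h74_card_map_conj W g
  have hcomm1 : ∀ x ∈ W1, ∀ y ∈ W1, ⁅x, y⁆ ∈ W := by
    intro x hx y hy
    rw [hW1] at hx hy
    obtain ⟨a, ha, rfl⟩ := hx
    obtain ⟨b, hb, rfl⟩ := hy
    rw [← map_commutatorElement]
    exact hZ1 ⟨_, hcomm a ha b hb, rfl⟩
  let S : Subgroup G :=
    { carrier := {s | ∃ w ∈ W, ∃ x ∈ W1, s = w * x}
      one_mem' := ⟨1, W.one_mem, 1, W1.one_mem, by simp⟩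
      mul_mem' := by
        rintro _ _ ⟨w, hw, x, hx, rfl⟩ ⟨w', hw', x', hx', rfl⟩
        exact ⟨w * (x * w' * x⁻¹), W.mul_mem hw (hnorm x (hg hx) w' hw'), x * x',
          W1.mul_mem hx hx', by group⟩
      inv_mem' := by
        rintro _ ⟨w, hw, x, hx, rfl⟩
        exact ⟨x⁻¹ * w⁻¹ * (x⁻¹)⁻¹, hnorm _ (T.inv_mem (hg hx)) _ (W.inv_mem hw), x⁻¹,
          W1.inv_mem hx, by group⟩ }
  have hWS : W ≤ S := fun w hw => ⟨w, hw, 1, W1.one_mem, by simp⟩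
  have hW1S : W1 ≤ S := fun x hx => ⟨1, W.one_mem, x, hx, by simp⟩
  have hST : S ≤ T := by
    rintro _ ⟨w, hw, x, hx, rfl⟩
    exact T.mul_mem (hWT hw) (hg hx)
  have hScomm : ∀ s ∈ S, ∀ s' ∈ S, ⁅s, s'⁆ ∈ W := by
    rintro _ ⟨w, hw, x, hx, rfl⟩ _ ⟨w', hw', x', hx', rfl⟩
    have he : ⁅w * x, w' * x'⁆ = w * (x * w' * x⁻¹) *
        ((x * x' * x⁻¹) * w⁻¹ * (x * x' * x⁻¹)⁻¹) * ⁅x, x'⁆ * w'⁻¹ := by
      simp only [commutatorElement_def]; group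
    rw [he]
    have hxT := hg hx
    have hx'T := hg hx'
    exact W.mul_mem (W.mul_mem (W.mul_mem (W.mul_mem hw (hnorm x hxT w' hw'))
      (hnorm _ (T.mul_mem (T.mul_mem hxT hx'T) (T.inv_mem hxT)) _ (W.inv_mem hw)))
      (hcomm1 x hx x' hx')) (W.inv_mem hw')
  have hTS : ¬ T ≤ S := by
    intro h
    obtain ⟨s, hs, s', hs', hss⟩ := hnonab
    exact hss (hScomm s (h hs) s' (h hs'))
  have hWpos : 0 < Nat.card ↥W := Nat.card_pos
  have h8 : W.relIndex T = 8 := by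
    have := h74_relIndex_mul_card hWT
    rw [hidx] at this
    exact Nat.eq_of_mul_eq_mul_right hWpos this
  have hmk := Subgroup.relIndex_mul_relIndex W S T hWS hST
  rw [h8] at hmk
  have hk1 : S.relIndex T ≠ 1 := fun h => hTS (Subgroup.relIndex_eq_one.mp h)
  have hk0 : S.relIndex T ≠ 0 := by
    intro h; rw [h] at hmk; omega
  have hm4 : W.relIndex S ≤ 4 := by
    have : 2 ≤ S.relIndex T := by omega
    nlinarith
  have hS := (h74_relIndex_mul_card hWS).symm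
  have := h74_card_le_inf S W W1 hWS hW1S _ hS hcW1
  exact this.trans (Nat.mul_le_mul_right _ hm4)

end Cfsg.Agent.Lib.Helper82.Rud
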