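import Mathlib
import Cfsg.Agent.Lib.Helper82.Rud.Defs
import Cfsg.Agent.Lib.Helper82.Rud.HP
import Cfsg.Agent.Lib.Helper82.Rud.KY
import Cfsg.Agent.Lib.Helper82.Rud.WA
import Cfsg.Agent.Lib.Helper82.Rud.WB

set_option autoImplicit false

namespace Cfsg.Agent.Lib.Helper82.Rud

open scoped commutatorElement

/-- Weak closure (abstract form). -/
theorem wc {G : Type*} [Group G] [Finite G] (T W Z : Subgroup G) (hWT : W ≤ T) (hZW : Z ≤ W)
    (hnorm : ∀ t ∈ T, ∀ w ∈ W, t * w * t⁻¹ ∈ W)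
    (hcent : ∀ x ∈ T, (∀ z ∈ Z, x * z = z * x) → x ∈ W)
    (hZc : ∀ z ∈ Z, ∀ w ∈ W, z * w = w * z)
    (hsq : ∀ w ∈ W, w ^ 2 ∈ Z) (hcomm : ∀ x ∈ W, ∀ y ∈ W, ⁅x, y⁆ ∈ Z) (hZ2 : ∀ z ∈ Z, z ^ 2 = 1)
    (hidx : Nat.card ↥T = 8 * Nat.card ↥W)
    (hnonab : ∃ s ∈ T, ∃ s' ∈ T, ⁅s, s'⁆ ∉ W)
    (hd : ∀ U : Subgroup G, U ≤ W → Nat.card ↥W ≤ 16 * Nat.card ↥U → Z ≤ U)
    (g : G) (hg : W.map (MulAut.conj g).toMonoidHom ≤ T) :
    W.map (MulAut.conj g).toMonoidHom = W := by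
  classical
  obtain ⟨hA1, hA2⟩ := wcA T W Z hWT hZW hnorm hidx hd g hg
  have hB := wcB T W Z hWT hZW hnorm hcomm hidx hnonab g hg hA2
  by_cases hcase : Z ≤ Z.map (MulAut.conj g).toMonoidHom
  · have hZZ : Z = Z.map (MulAut.conj g).toMonoidHom :=
      Subgroup.eq_of_le_of_card_ge hcase (by rw [h74_card_map_conj])
    have hle : W.map (MulAut.conj g).toMonoidHom ≤ W := by
      intro x hx
      refine hcent x (hg hx) ?_
      intro z hz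
      rw [hZZ] at hz
      obtain ⟨w, hw, rfl⟩ := hx
      obtain ⟨z', hz', rfl⟩ := hz
      rw [← map_mul, ← map_mul, hZc z' hz' w hw]
    exact Subgroup.eq_of_le_of_card_ge hle (by rw [h74_card_map_conj])
  · exfalso
    obtain ⟨z0, hz0Z, hz0⟩ := SetLike.not_le_iff_exists.mp hcase
    obtain ⟨Y, hMY, hYZ, hz0Y, hcY⟩ := hyperplane Z (Z ⊓ Z.map (MulAut.conj g).toMonoidHom)
      inf_le_left (fun a ha => by rw [hZ2 a ha]; exact Subgroup.one_mem _)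
      (fun a ha m hm => by
        rw [hZc a ha m (hZW hm.1)]; simpa using hm) z0 hz0Z (fun h => hz0 h.2)
    obtain ⟨U, hUD, hcU, hZU⟩ := key (W ⊓ W.map (MulAut.conj g).toMonoidHom) Z Y hYZ
      (le_inf hZW hA1) hcY (fun z hz d hd' => hZc z hz d hd'.1) (fun d hd' => hsq d hd'.1)
      (fun x hx y hy => by
        refine hMY ⟨hcomm x hx.1 y hy.1, ?_⟩
        obtain ⟨a, ha, rfl⟩ := hx.2
        obtain ⟨b, hb, rfl⟩ := hy.2
        rw [← map_commutatorElement]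
        exact ⟨_, hcomm a ha b hb, rfl⟩)
    exact hZU (hd U (hUD.trans inf_le_left) (by omega))

end Cfsg.Agent.Lib.Helper82.Rud
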