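import Mathlib
import Cfsg.Agent.Lib.Helper82.Rud.Defs
import Cfsg.Prelude.Def_Transfer
import Cfsg.Agent.Lib.Helper82.Rud.WC
import Cfsg.Agent.Lib.Helper82.Rud.OR
import Cfsg.Agent.Lib.Helper82.Rud.HD
import Cfsg.Agent.Lib.Helper82.Rud.CM
import Cfsg.Agent.Lib.Helper82.Rud.NA
import Cfsg.Agent.Lib.Helper82.Rud.BA

set_option autoImplicit false

namespace Cfsg.Agent.Lib.Helper82.Rud

open scoped commutatorElement

theorem TB_aux {G : Type*} [Group G] [Finite G] (P : Subgroup G)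
    (W : Subgroup ↥P) (h : Hyp ↥P W) :
    Cfsg.IsWeaklyClosed (W.map P.subtype) P := by
  refine ⟨Subgroup.map_subtype_le W, fun g hg => ?_⟩
  obtain ⟨hPcard, -, -, -, hWcard, -⟩ := orders h
  have hWmap : Nat.card ↥(W.map P.subtype) = Nat.card ↥W :=
    Subgroup.card_map_of_injective P.subtype_injective
  refine wc P (W.map P.subtype) ((Subgroup.upperCentralSeries ↥P 3).map P.subtype)
    (Subgroup.map_subtype_le W) (Subgroup.map_mono (Z3_le h)) ?_ ?_ ?_ ?_ ?_ ?_ ?_ ?_ ?_ g hg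
  · rintro t ht _ ⟨w, hw, rfl⟩
    exact ⟨⟨t, ht⟩ * w * ⟨t, ht⟩⁻¹, (wnormal h).conj_mem w hw _, rfl⟩
  · intro x hx hz
    refine ⟨⟨x, hx⟩, ?_, rfl⟩
    rw [SetLike.mem_coe, h.hW, Subgroup.mem_centralizer_iff]
    intro z hz'
    exact Subtype.ext (hz z ⟨z, hz', rfl⟩).symm
  · rintro _ ⟨z, hz, rfl⟩ _ ⟨w, hw, rfl⟩
    exact congrArg Subtype.val (Z3_comm h z hz w hw)
  · rintro _ ⟨w, hw, rfl⟩
    exact ⟨w ^ 2, sq_mem h w hw, rfl⟩
  · rintro _ ⟨x, hx, rfl⟩ _ ⟨y, hy, rfl⟩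
    exact ⟨⁅x, y⁆, comm_mem h x hx y hy, by simp [commutatorElement_def]⟩
  · rintro _ ⟨z, hz, rfl⟩
    exact congrArg Subtype.val ((comm_eq h).2 z hz)
  · rw [hWmap, hPcard, hWcard]; norm_num
  · obtain ⟨s, s', -, -, hss⟩ := nonab h
    refine ⟨s, s.2, s', s'.2, fun hmem => hss ?_⟩
    obtain ⟨y, hy, hyeq⟩ := hmem
    have : y = ⁅s, s'⁆ := by
      apply Subtype.ext
      rw [← Subgroup.subtype_apply, hyeq]
      simp [commutatorElement_def]
    rw [← this]; exact hy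
  · intro U hU hUcard
    have hUP : U ≤ P := hU.trans (Subgroup.map_subtype_le W)
    have h1 : U.subgroupOf P ≤ W := by
      intro x hx
      obtain ⟨y, hy, hyeq⟩ := hU (Subgroup.mem_subgroupOf.1 hx)
      have : y = x := Subtype.ext hyeq
      rw [← this]; exact hy
    have h2 : Nat.card ↥(U.subgroupOf P) = Nat.card ↥U :=
      Nat.card_congr (Subgroup.subgroupOfEquivOfLe hUP).toEquiv
    have h3 := hd' h (U.subgroupOf P) h1 (by rw [h2, ← hWmap]; exact hUcard)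
    rintro _ ⟨z, hz, rfl⟩
    exact Subgroup.mem_subgroupOf.1 (h3 hz)

theorem weakly_closed {G : Type*} [Group G] [Finite G] (T : Sylow 2 G)
    (W : Subgroup ↥(T : Subgroup G)) (h : Hyp ↥(T : Subgroup G) W) :
    Cfsg.IsWeaklyClosed (W.map (T : Subgroup G).subtype) (T : Subgroup G) :=
  TB_aux (T : Subgroup G) W h

end Cfsg.Agent.Lib.Helper82.Rud
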